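import Cfsg.Agent.Lib.OmegaPlusPres.Monomial
import Cfsg.Agent.Lib.SL3Pres.Setup

/-!
An image of `SL_n(F)` and one further element with a few relations give a Curtis–Tits system of type `D_n`.
-/

set_option autoImplicit false
set_option linter.unusedSectionVars false

namespace CfsgLib.OmegaPlusPres

open Matrix CfsgLib.ClassicalLinear CfsgLib.SectRank.CT
open CfsgLib.SL2Pres (dS wS)

universe u v

variable {F : Type u} [Field F] {m : ℕ} {Γ : Type v} [Group Γ]

local notation "SN" => SpecialLinearGroup (Fin (m + 3)) F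

theorem cconj {G : Type*} [Group G] {g a b : G} (h : Commute a b) : Commute (g * a * g⁻¹) (g * b * g⁻¹) :=
  h.map (MulAut.conj g).toMonoidHom

theorem wS_val : (wS : SpecialLinearGroup (Fin 2) F).1 = !![0, 1; -1, 0] := rfl

theorem zero_ne_tail (hm : 1 ≤ m) :
    (0 : Fin (m + 3)) ≠ ixR ∧ (0 : Fin (m + 3)) ≠ ixQ ∧ (0 : Fin (m + 3)) ≠ ixL :=
  ⟨fun e => by have := congrArg Fin.val e; simp [ix_val] at this; omega,
    fun e => by have := congrArg Fin.val e; simp [ix_val] at this,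
    fun e => by have := congrArg Fin.val e; simp [ix_val] at this⟩

theorem exists_third (a b : Fin (m + 3)) : ∃ c, c ≠ a ∧ c ≠ b := by
  have h : ({a, b} : Finset (Fin (m + 3)))ᶜ.Nonempty := by
    rw [← Finset.card_pos, Finset.card_compl, Fintype.card_fin]
    have := Finset.card_le_two (a := a) (b := b)
    omega
  obtain ⟨c, hc⟩ := h
  simp only [Finset.mem_compl, Finset.mem_insert, Finset.mem_singleton, not_or] at hc
  exact ⟨c, hc.1, hc.2⟩

/-- An element moving three coordinates exactly. -/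
theorem exists_exact3 (hm : 1 ≤ m) {r q l a b c : Fin (m + 3)} (hrq : r ≠ q) (hrl : r ≠ l) (hql : q ≠ l)
    (hab : a ≠ b) (hac : a ≠ c) (hbc : b ≠ c) :
    ∃ g : SN, Moves g r a ∧ Moves g q b ∧ Moves g l c := by
  obtain ⟨g, ⟨c0, hc0, g1, g2⟩, hq, hl⟩ := exists_moves3 (F := F) hrq hrl hql hab hac hbc
  obtain ⟨d, hd⟩ : ({a, b, c} : Finset (Fin (m + 3)))ᶜ.Nonempty := by
    rw [← Finset.card_pos, Finset.card_compl, Fintype.card_fin]
    have := Finset.card_le_three (a := a) (b := b) (c := c)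
    omega
  simp only [Finset.mem_compl, Finset.mem_insert, Finset.mem_singleton, not_or] at hd
  have had : a ≠ d := Ne.symm hd.1
  let D := SpecialLinearGroup.diag2n (F := F) had c0⁻¹ (inv_ne_zero hc0)
  set dd : Fin (m + 3) → F := fun i => if i = a then c0⁻¹ else if i = d then c0⁻¹⁻¹ else 1 with hdd
  have hD : D.1 = Matrix.diagonal dd := SpecialLinearGroup.diag2n_coe had c0⁻¹ (inv_ne_zero hc0)
  have he : ∀ x y, (D * g).1 x y = dd x * g.1 x y := fun x y => by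
    show (D.1 * g.1) x y = _
    rw [hD, Matrix.diagonal_mul]
  have hb : dd b = 1 := by simp [hdd, hab.symm, Ne.symm hd.2.1]
  have hc : dd c = 1 := by simp [hdd, hac.symm, Ne.symm hd.2.2]
  refine ⟨D * g, ⟨fun x => ?_, fun y => ?_⟩, ⟨fun x => ?_, fun y => ?_⟩, fun x => ?_, fun y => ?_⟩
  · rw [he, g1]; rcases eq_or_ne x a with rfl | hx <;> simp_all
  · rw [he, g2]; rcases eq_or_ne y r with rfl | hy <;> simp_all
  · rw [he, hq.1]; rcases eq_or_ne x b with rfl | hx <;> simp_all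
  · rw [he, hq.2, hb, one_mul]
  · rw [he, hl.1]; rcases eq_or_ne x c with rfl | hx <;> simp_all
  · rw [he, hl.2, hc, one_mul]

theorem eq_tail (g : SN) (hg : g ∈ (tailHom (m := m)).range) (a : Fin (m + 3)) (ha : a.val < m) :
    Moves g a a := by
  obtain ⟨A, rfl⟩ := hg
  exact tailHom_low A ⟨a.val, ha⟩

variable (θ : SpecialLinearGroup (Fin (m + 3)) F →* Γ) (gg : Γ)

open scoped Classical in
/-- The chosen carrier of the last pair. -/
noncomputable def carr (a b : Fin (m + 3)) : SN :=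
  if h : ∃ g : SN, Moves g ixQ a ∧ Moves g ixL b then h.choose else 1

/-- The flip of a pair. -/
noncomputable def fp (a b : Fin (m + 3)) : Γ := θ (carr a b) * gg * (θ (carr a b))⁻¹

/-- The relations on the pair `(θ, gg)`. -/
structure FlipBase : Prop where
  hm : 1 ≤ m
  sq : gg * gg = 1
  fix : ∀ x : SN, Moves x ixQ ixQ → Moves x ixL ixL → Commute (θ x) gg
  swap : ∀ A : SpecialLinearGroup (Fin 2) F,
    gg * θ (b23 A) * gg⁻¹ = θ (b23 (wS * A * wS⁻¹))
  tri : fp θ gg 0 ixL * gg = fp θ gg 0 ixQ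

/-- The new node. -/
noncomputable def piHom : SpecialLinearGroup (Fin 3) F →* Γ :=
  (MulAut.conj (fp θ gg 0 ixL)).toMonoidHom.comp (θ.comp tailHom)

/-- The root element of `e_Q + e_L`. -/
noncomputable def pRoot (u : F) : Γ := piHom θ gg (el 1 2 u)

variable {θ gg}

theorem piHom_apply (A : SpecialLinearGroup (Fin 3) F) :
    piHom θ gg A = fp θ gg 0 ixL * θ (tailHom A) * (fp θ gg 0 ixL)⁻¹ := rfl

theorem pRoot_eq (u : F) : pRoot θ gg u = fp θ gg 0 ixL * θ (tv ixQ ixL u) * (fp θ gg 0 ixL)⁻¹ := by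
  rw [pRoot, piHom_apply, (tailHom_el12 u).1]

theorem b23_upS (u : F) : b23 (m := m) (upS u) = tv ixQ ixL u := by
  show tailHom (emb23 (upS u)) = _
  rw [emb23_upS, (tailHom_el12 u).1]

theorem b23_lowS (u : F) : b23 (m := m) (lowS u) = tv ixL ixQ u := by
  show tailHom (emb23 (lowS u)) = _
  rw [emb23_lowS, (tailHom_el12 u).2]

theorem wS_conj (u : F) : wS * upS u * wS⁻¹ = lowS (-u) ∧ wS * lowS u * wS⁻¹ = upS (-u) := by
  constructor <;> rw [mul_inv_eq_iff_eq_mul] <;> apply Subtype.ext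
  · show wS.1 * (upS u).1 = (lowS (-u)).1 * wS.1
    rw [upS_coe, lowS_coe]
    ext i j; fin_cases i <;> fin_cases j <;> simp [wS_val, Matrix.mul_apply, Fin.sum_univ_two]
  · show wS.1 * (lowS u).1 = (upS (-u)).1 * wS.1
    rw [upS_coe, lowS_coe]
    ext i j; fin_cases i <;> fin_cases j <;> simp [wS_val, Matrix.mul_apply, Fin.sum_univ_two]

namespace FlipBase

variable (S : FlipBase θ gg)
include S

theorem carr_spec {a b : Fin (m + 3)} (hab : a ≠ b) :
    Moves (carr (F := F) a b) ixQ a ∧ Moves (carr (F := F) a b) ixL b := by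
  have h : ∃ g : SN, Moves g ixQ a ∧ Moves g ixL b := exists_moves (F := F) ixQL ixRQ ixRL hab
  rw [carr, dif_pos h]
  exact h.choose_spec

theorem fp_eq {k : SN} {a b : Fin (m + 3)} (hab : a ≠ b) (hq : Moves k ixQ a) (hl : Moves k ixL b) :
    fp θ gg a b = θ k * gg * (θ k)⁻¹ := by
  obtain ⟨c1, c2⟩ := S.carr_spec hab
  have h := (S.fix (k⁻¹ * carr a b) (hq.inv.mul c1) (hl.inv.mul c2)).eq
  rw [fp, show θ (carr a b) = θ k * θ (k⁻¹ * carr a b) by rw [← map_mul, mul_inv_cancel_left]]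
  generalize θ (k⁻¹ * carr a b) = c at h ⊢
  rw [mul_assoc (θ k) c, h]
  group

theorem fp_base : fp θ gg ixQ ixL = gg := by
  rw [S.fp_eq ixQL (k := 1) (moves_one _) (moves_one _), map_one, one_mul, inv_one, mul_one]

theorem fp_sq (a b : Fin (m + 3)) : fp θ gg a b * fp θ gg a b = 1 := by
  rw [fp, show θ (carr a b) * gg * (θ (carr a b))⁻¹ * (θ (carr a b) * gg * (θ (carr a b))⁻¹) =
    θ (carr a b) * (gg * gg) * (θ (carr a b))⁻¹ by group, S.sq, mul_one, mul_inv_cancel]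

theorem fp_inv (a b : Fin (m + 3)) : (fp θ gg a b)⁻¹ = fp θ gg a b :=
  inv_eq_of_mul_eq_one_left (S.fp_sq a b)

theorem fp_conj {h : SN} {a b a' b' : Fin (m + 3)} (hab : a ≠ b) (ha : Moves h a a') (hb : Moves h b b') :
    θ h * fp θ gg a b * (θ h)⁻¹ = fp θ gg a' b' := by
  obtain ⟨c1, c2⟩ := S.carr_spec hab
  rw [S.fp_eq (k := h * carr a b) (mv_target ha.mv hb.mv hab) (ha.mul c1) (hb.mul c2), map_mul, fp]
  group

theorem fp_comm {x : SN} {a b : Fin (m + 3)} (hab : a ≠ b) (ha : Moves x a a) (hb : Moves x b b) :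
    Commute (θ x) (fp θ gg a b) := mul_inv_eq_iff_eq_mul.1 (S.fp_conj hab ha hb)

theorem triangle {a b c : Fin (m + 3)} (hab : a ≠ b) (hac : a ≠ c) (hbc : b ≠ c) :
    fp θ gg a b * fp θ gg c b = fp θ gg a c := by
  obtain ⟨h0R, h0Q, h0L⟩ := zero_ne_tail S.hm
  obtain ⟨h, h1, h2, h3⟩ := exists_exact3 (F := F) S.hm h0Q h0L ixQL hac hab hbc.symm
  have tri' : fp θ gg 0 ixL * fp θ gg ixQ ixL = fp θ gg 0 ixQ := by rw [S.fp_base]; exact S.tri
  have e := congrArg (fun z => θ h * z * (θ h)⁻¹) tri'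
  rw [show ∀ g x y : Γ, g * (x * y) * g⁻¹ = g * x * g⁻¹ * (g * y * g⁻¹) from fun g x y => by group,
    S.fp_conj h0L h1 h3, S.fp_conj ixQL h2 h3, S.fp_conj h0Q h1 h2] at e
  exact e

theorem fp_symm {b c : Fin (m + 3)} (hbc : b ≠ c) : fp θ gg b c = fp θ gg c b := by
  obtain ⟨a, hab, hac⟩ := exists_third b c
  have h1 := S.triangle hab hac hbc
  have h2 := S.triangle hac hab hbc.symm
  rw [← h1, mul_assoc] at h2
  have h3 := eq_inv_of_mul_eq_one_right (mul_eq_left.1 h2)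
  rwa [S.fp_inv] at h3

theorem fp_commute {a b c : Fin (m + 3)} (hab : a ≠ b) (hac : a ≠ c) (hbc : b ≠ c) :
    Commute (fp θ gg a b) (fp θ gg c b) := by
  have e := S.triangle hab hac hbc
  have e' := congrArg (·⁻¹) e
  simp only [_root_.mul_inv_rev, S.fp_inv] at e'
  exact e.trans e'.symm

theorem gg_eq_inv : gg⁻¹ = gg := inv_eq_of_mul_eq_one_left S.sq

theorem gg_X (u : F) : gg * θ (tv ixQ ixL u) * gg⁻¹ = θ (tv ixL ixQ (-u)) ∧
    gg * θ (tv ixL ixQ u) * gg⁻¹ = θ (tv ixQ ixL (-u)) := by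
  constructor
  · rw [← b23_upS, S.swap, (wS_conj u).1, b23_lowS]
  · rw [← b23_lowS, S.swap, (wS_conj u).2, b23_upS]

/-- The root element does not depend on the auxiliary coordinate. -/
theorem pRoot_indep {a : Fin (m + 3)} (haQ : a ≠ ixQ) (haL : a ≠ ixL) (u : F) :
    fp θ gg a ixL * θ (tv ixQ ixL u) * (fp θ gg a ixL)⁻¹ = pRoot θ gg u := by
  obtain ⟨h0R, h0Q, h0L⟩ := zero_ne_tail S.hm
  rw [pRoot_eq]
  rcases eq_or_ne a 0 with rfl | ha0
  · rfl
  have ht := S.triangle h0L ha0.symm haL.symm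
  have hX : Commute (θ (tv ixQ ixL u)) (fp θ gg 0 a) :=
    S.fp_comm ha0.symm (tv_mv ixQL h0Q.symm h0L.symm u) (tv_mv ixQL haQ.symm haL.symm u)
  rw [← ht] at hX
  have hc := hX.eq
  rw [S.fp_inv, S.fp_inv]
  have hf := S.fp_inv 0 ixL
  generalize fp θ gg 0 ixL = f at hc hf ⊢
  generalize hb : fp θ gg a ixL = b at hc ⊢
  have hb2 : b * b = 1 := hb ▸ S.fp_sq a ixL
  calc b * θ (tv ixQ ixL u) * b = f⁻¹ * (f * b * θ (tv ixQ ixL u)) * b := by group
    _ = f⁻¹ * θ (tv ixQ ixL u) * f * (b * b) := by rw [← hc]; group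
    _ = f⁻¹ * θ (tv ixQ ixL u) * f := by rw [hb2, mul_one]
    _ = _ := by rw [hf]

theorem pRoot_conj {h : SN} {a b : Fin (m + 3)} (hq : Moves h ixQ ixQ) (hl : Moves h ixL ixL)
    (haQ : a ≠ ixQ) (haL : a ≠ ixL) (hab : Moves h a b) (u : F) : Commute (θ h) (pRoot θ gg u) := by
  have hbQ : b ≠ ixQ := mv_target hab.mv hq.mv haQ
  have hbL : b ≠ ixL := mv_target hab.mv hl.mv haL
  refine mul_inv_eq_iff_eq_mul.1 ?_
  nth_rw 1 [← S.pRoot_indep haQ haL u]
  rw [← S.pRoot_indep hbQ hbL u, show θ h * (fp θ gg a ixL * θ (tv ixQ ixL u) * (fp θ gg a ixL)⁻¹) * (θ h)⁻¹ =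
    (θ h * fp θ gg a ixL * (θ h)⁻¹) * (θ h * θ (tv ixQ ixL u) * (θ h)⁻¹) *
      (θ h * fp θ gg a ixL * (θ h)⁻¹)⁻¹ by group, S.fp_conj haL hab hl, ← map_inv, ← map_mul, ← map_mul,
    conj_tv hq hl ixQL]

/-- With five coordinates the lower block commutes with the root element. -/
theorem low_of_two_le (h2 : 2 ≤ m) {x : SN} (hq : Moves x ixQ ixQ) (hl : Moves x ixL ixL) (u : F) :
    Commute (θ x) (pRoot θ gg u) := by
  refine (Subgroup.mem_centralizer_singleton_iff.1 ?_ : θ x * _ = _)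
  refine mem_of_fix_tail (m := m + 1) (k := 2) (H := (Subgroup.centralizer {pRoot θ gg u}).comap θ)
    (fun i j hij t => ?_) (g := x) (fun j => by fin_cases j; exacts [hq, hl])
  rw [Subgroup.mem_comap, Subgroup.mem_centralizer_singleton_iff]
  set a := Fin.castAdd 2 i
  set b := Fin.castAdd 2 j
  obtain ⟨c, hc⟩ : ({a, b, ixQ, ixL} : Finset (Fin (m + 3)))ᶜ.Nonempty := by
    rw [← Finset.card_pos, Finset.card_compl, Fintype.card_fin]
    have := Finset.card_le_four (a := a) (b := b) (c := ixQ) (d := ixL)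
    omega
  simp only [Finset.mem_compl, Finset.mem_insert, Finset.mem_singleton, not_or] at hc
  have ha : a ≠ ixQ ∧ a ≠ ixL := by
    constructor <;> intro e <;> have := congrArg Fin.val e <;> simp [a, ix_val] at this <;> omega
  have hb : b ≠ ixQ ∧ b ≠ ixL := by
    constructor <;> intro e <;> have := congrArg Fin.val e <;> simp [b, ix_val] at this <;> omega
  have hab : a ≠ b := fun e => hij (Fin.castAdd_injective _ _ e)
  exact (S.pRoot_conj (tv_mv hab ha.1 hb.1 t) (tv_mv hab ha.2 hb.2 t) hc.2.2.1 hc.2.2.2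
    (tv_mv hab (Ne.symm hc.1) (Ne.symm hc.2.1) t) u).eq

end FlipBase

variable (θ gg) in
/-- The relations, completed. -/
structure FlipData : Prop extends FlipBase θ gg where
  top1 : Commute (θ (tv ixQ ixL 1)) (pRoot θ gg 1)
  low1 : ∀ x : SN, Moves x ixQ ixQ → Moves x ixL ixL → Commute (θ x) (pRoot θ gg 1)

namespace FlipData

variable (S : FlipData θ gg)
include S

theorem pi_b12 (A : SpecialLinearGroup (Fin 2) F) : piHom θ gg (emb12 A) = θ (tailHom (emb12 A)) := by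
  obtain ⟨h0R, h0Q, h0L⟩ := zero_ne_tail S.hm
  have hL : Moves (tailHom (m := m) (emb12 A)) ixL ixL := by
    refine tailHom_moves (i := (2 : Fin 3)) (k := 2) ⟨fun a => ?_, fun a => ?_⟩ <;>
      fin_cases a <;> simp [emb12_coe]
  have h0 : Moves (tailHom (m := m) (emb12 A)) 0 0 := eq_tail _ ⟨_, rfl⟩ 0 S.hm
  rw [piHom_apply, ← (S.toFlipBase.fp_comm h0L h0 hL).eq, mul_inv_cancel_right]

theorem d1_X (s : Fˣ) (u : F) :
    θ (b12 (dS s)) * θ (tv ixQ ixL u) * (θ (b12 (dS s)))⁻¹ = θ (tv ixQ ixL (((s⁻¹ : Fˣ) : F) * u)) ∧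
    θ (b12 (dS s)) * pRoot θ gg u * (θ (b12 (dS s)))⁻¹ = pRoot θ gg (((s⁻¹ : Fˣ) : F) * u) := by
  have e : emb12 (dS s) * el 1 2 u * (emb12 (dS s))⁻¹ = el 1 2 (((s⁻¹ : Fˣ) : F) * u) := by
    rw [mul_inv_eq_iff_eq_mul]
    apply Subtype.ext
    show (emb12 (dS s)).1 * (el 1 2 u).1 = (el 1 2 _).1 * (emb12 (dS s)).1
    rw [emb12_coe, el_coe (by decide), el_coe (by decide)]
    ext i j; fin_cases i <;> fin_cases j <;>
      simp [dS_val, Matrix.mul_apply, Fin.sum_univ_three, Matrix.single, Matrix.one_apply, mul_comm]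
  constructor
  · rw [← (tailHom_el12 u).1, ← (tailHom_el12 _).1, ← e]
    show θ (tailHom (emb12 (dS s))) * _ * (θ (tailHom (emb12 (dS s))))⁻¹ = _
    simp only [map_mul, map_inv]
  · show θ (tailHom (emb12 (dS s))) * _ * (θ (tailHom (emb12 (dS s))))⁻¹ = _
    rw [← S.pi_b12, pRoot, pRoot, ← map_inv, ← map_mul, ← map_mul, e]

theorem scale2 (s : Fˣ) {a b : F} (h : Commute (θ (tv ixQ ixL a)) (pRoot θ gg b)) :
    Commute (θ (tv ixQ ixL ((s : F) * a))) (pRoot θ gg (((s⁻¹ : Fˣ) : F) * b)) := by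
  obtain ⟨h0R, h0Q, h0L⟩ := zero_ne_tail S.hm
  obtain ⟨k, k1, k2, k3⟩ := exists_exact3 (F := F) S.hm (r := ixR) (q := ixQ) (l := ixL) (a := ixQ) (b := 0)
    (c := ixL) ixRQ ixRL ixQL h0Q.symm ixQL h0L
  have hX : ∀ (t : Fˣ) (u : F), θ (k * b23 (dS t) * k⁻¹) * θ (tv ixQ ixL u) * (θ (k * b23 (dS t) * k⁻¹))⁻¹ =
      θ (tv ixQ ixL ((t : F) * u)) := by
    intro t u
    have e : emb23 (dS t) * el 0 2 u * (emb23 (dS t))⁻¹ = el 0 2 ((t : F) * u) := by
      rw [mul_inv_eq_iff_eq_mul]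
      apply Subtype.ext
      show (emb23 (dS t)).1 * (el 0 2 u).1 = (el 0 2 _).1 * (emb23 (dS t)).1
      rw [emb23_coe, el_coe (by decide), el_coe (by decide)]
      ext i j; fin_cases i <;> fin_cases j <;>
        simp [dS_val, Matrix.mul_apply, Fin.sum_univ_three, Matrix.single, Matrix.one_apply, mul_comm]
    have e' := congrArg (tailHom (m := m)) e
    simp only [map_mul, map_inv] at e'
    rw [el_eq_tv, el_eq_tv, tailHom_tv (by decide), tailHom_tv (by decide)] at e'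
    change b23 (dS t) * tv ixR ixL u * (b23 (dS t))⁻¹ = tv ixR ixL _ at e'
    rw [← map_inv, ← map_mul, ← map_mul, ← conj_tv k1 k3 ixRL u, ← conj_tv k1 k3 ixRL ((t : F) * u), ← e']
    congr 1; group
  have hf : fp θ gg 0 ixL * θ (k * b23 (dS s) * k⁻¹) * (fp θ gg 0 ixL)⁻¹ = θ (k * b23 (dS s⁻¹) * k⁻¹) := by
    have hw : wS * dS s * wS⁻¹ = dS s⁻¹ := by
      rw [mul_inv_eq_iff_eq_mul]
      apply Subtype.ext
      show wS.1 * (dS s).1 = (dS s⁻¹).1 * wS.1
      rw [dS_val, dS_val]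
      ext i j; fin_cases i <;> fin_cases j <;> simp [wS_val, Matrix.mul_apply, Fin.sum_univ_two]
    rw [S.toFlipBase.fp_eq h0L k2 k3, ← hw, map_mul θ _ (k⁻¹), map_mul θ _ (k⁻¹), map_mul θ k, map_mul θ k,
      map_inv, ← S.swap]
    group
  set D := θ (k * b23 (dS s) * k⁻¹) with hD
  have hP : D * pRoot θ gg b * D⁻¹ = pRoot θ gg (((s⁻¹ : Fˣ) : F) * b) := by
    rw [pRoot_eq, pRoot_eq, ← hX s⁻¹ b, ← hf, S.toFlipBase.fp_inv]
    have hsq := S.toFlipBase.fp_sq 0 ixL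
    generalize fp θ gg 0 ixL = f at hsq ⊢
    have hfi : f⁻¹ = f := inv_eq_of_mul_eq_one_left hsq
    calc D * (f * θ (tv ixQ ixL b) * f) * D⁻¹
        = (f * f) * D * f * θ (tv ixQ ixL b) * f * D⁻¹ * (f * f) := by rw [hsq]; group
      _ = f * (f * D * f * θ (tv ixQ ixL b) * (f * D⁻¹ * f)) * f := by group
      _ = _ := by
        simp only [_root_.mul_inv_rev, hfi, mul_assoc]
  rw [← hX s a, ← hP]
  exact cconj h

theorem top [Finite F] (a b : F) : Commute (θ (tv ixQ ixL a)) (pRoot θ gg b) := by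
  have both : ∀ (s : Fˣ) {a b : F}, Commute (θ (tv ixQ ixL a)) (pRoot θ gg b) →
      Commute (θ (tv ixQ ixL ((s : F) * a))) (pRoot θ gg ((s : F) * b)) := by
    intro s a b h
    obtain ⟨e1, -⟩ := S.d1_X s⁻¹ a
    obtain ⟨-, e2⟩ := S.d1_X s⁻¹ b
    rw [inv_inv] at e1 e2
    rw [← e1, ← e2]
    exact cconj h
  obtain ⟨ω, hω⟩ := IsCyclic.exists_generator (α := Fˣ)
  have z0 : θ (tv ixQ ixL (0 : F)) = 1 := by
    have h := tv_add (i := (ixQ : Fin (m + 3))) (j := ixL) (0 : F) 0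
    rw [add_zero] at h
    rw [mul_eq_left.1 h.symm, map_one]
  have hone : ∀ a, Commute (θ (tv ixQ ixL a)) (pRoot θ gg 1) := by
    let A : AddSubmonoid F :=
      { carrier := {a | ∀ s : F, Commute (θ (tv ixQ ixL (s * s * a))) (pRoot θ gg 1)}
        zero_mem' := fun s => by rw [mul_zero, z0]; exact Commute.one_left _
        add_mem' := fun {x y} hx hy s => by
          rw [mul_add, tv_add, map_mul]; exact (hx s).mul_left (hy s) }
    have h1 : (1 : F) ∈ A := fun s => by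
      rcases eq_or_ne s 0 with rfl | hs
      · rw [mul_zero, zero_mul, z0]; exact Commute.one_left _
      · have h := S.scale2 (Units.mk0 s hs) (both (Units.mk0 s hs) S.top1)
        simpa [hs] using h
    intro a
    have h := SL3Pres.mem_of_sq_closed hω A h1 (fun a ha s => by
      have := ha (s * (ω : F))
      rwa [show s * (ω : F) * (s * ω) * a = s * s * ((ω : F) ^ 2 * a) by ring] at this) a 1
    simpa using h
  rcases eq_or_ne b 0 with rfl | hb
  · rw [pRoot_eq, z0, mul_one, mul_inv_cancel]; exact Commute.one_right _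
  · have h := both (Units.mk0 b hb) (hone (b⁻¹ * a))
    simpa [hb] using h

theorem comm_b23_p [Finite F] (A : SpecialLinearGroup (Fin 2) F) (u : F) :
    Commute (θ (b23 A)) (pRoot θ gg u) := by
  obtain ⟨h0R, h0Q, h0L⟩ := zero_ne_tail S.hm
  have hlow : ∀ a u, Commute (θ (tv ixL ixQ a)) (pRoot θ gg u) := by
    intro a u
    obtain ⟨s, s1, s2, s3⟩ := exists_exact3 (F := F) S.hm (r := 0) (q := ixQ) (l := ixL) (a := 0) (b := ixL)
      (c := ixQ) h0Q h0L ixQL h0L h0Q ixQL.symm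
    have hP : θ s * pRoot θ gg (-u) * (θ s)⁻¹ = pRoot θ gg u := by
      rw [pRoot_eq, pRoot_eq, show θ s * (fp θ gg 0 ixL * θ (tv ixQ ixL (-u)) * (fp θ gg 0 ixL)⁻¹) * (θ s)⁻¹ =
        (θ s * fp θ gg 0 ixL * (θ s)⁻¹) * (θ s * θ (tv ixQ ixL (-u)) * (θ s)⁻¹) *
          (θ s * fp θ gg 0 ixL * (θ s)⁻¹)⁻¹ by group, S.toFlipBase.fp_conj h0L s1 s3, ← map_inv,
        ← map_mul, ← map_mul, conj_tv s2 s3 ixQL, ← S.toFlipBase.triangle h0L h0Q ixQL.symm, S.toFlipBase.fp_base,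
        _root_.mul_inv_rev]
      have h := (S.toFlipBase.gg_X (-u)).2
      rw [neg_neg] at h
      rw [show ∀ f g x : Γ, f * g * x * (g⁻¹ * f⁻¹) = f * (g * x * g⁻¹) * f⁻¹ from fun f g x => by group, h]
    rw [← hP, ← conj_tv s2 s3 ixQL a, map_mul, map_mul, map_inv]
    exact cconj (S.top a (-u))
  have key : (Subgroup.centralizer {pRoot θ gg u}).comap (θ.comp (b23 (m := m))) = ⊤ := by
    rw [eq_top_iff, ← closure_transvections_eq_top (ι := Fin 2) (F := F), Subgroup.closure_le]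
    rintro _ ⟨i, j, hij, t, rfl⟩
    rw [SetLike.mem_coe, Subgroup.mem_comap, Subgroup.mem_centralizer_singleton_iff, MonoidHom.comp_apply]
    fin_cases i <;> fin_cases j
    · exact absurd rfl hij
    · show θ (b23 (upS t)) * _ = _ * θ (b23 (upS t))
      rw [b23_upS]; exact (S.top t u).eq
    · show θ (b23 (lowS t)) * _ = _ * θ (b23 (lowS t))
      rw [b23_lowS]; exact (hlow t u).eq
    · exact absurd rfl hij
  exact Subgroup.mem_centralizer_singleton_iff.1
    (show A ∈ (Subgroup.centralizer {pRoot θ gg u}).comap (θ.comp (b23 (m := m))) from key ▸ Subgroup.mem_top A)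

theorem pi_el21 (u : F) : piHom θ gg (el 2 1 u) = gg * pRoot θ gg (-u) * gg⁻¹ := by
  obtain ⟨h0R, h0Q, h0L⟩ := zero_ne_tail S.hm
  have hc := (S.toFlipBase.fp_commute h0L h0Q ixQL.symm).eq
  rw [S.toFlipBase.fp_base] at hc
  have h := (S.toFlipBase.gg_X (-u)).1
  rw [neg_neg] at h
  rw [piHom_apply, (tailHom_el12 u).2, ← h, pRoot_eq]
  rw [show fp θ gg 0 ixL * (gg * θ (tv ixQ ixL (-u)) * gg⁻¹) * (fp θ gg 0 ixL)⁻¹ =
    (fp θ gg 0 ixL * gg) * θ (tv ixQ ixL (-u)) * (fp θ gg 0 ixL * gg)⁻¹ by group, hc]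
  group

theorem low [Finite F] {i j : Fin (m + 3)} (hij : i ≠ j) (hi : i.val < m + 1) (hj : j.val < m + 1) (t u : F) :
    Commute (θ (tv i j t)) (pRoot θ gg u) := by
  have hne : ∀ x : Fin (m + 3), x.val < m + 1 → x ≠ ixQ ∧ x ≠ ixL := fun x hx => by
    constructor <;> intro e <;> have := congrArg Fin.val e <;> simp [ix_val] at this <;> omega
  rcases eq_or_ne u 0 with rfl | hu
  · have h : tv (1 : Fin 3) 2 (0 : F) = 1 := mul_eq_left.1 ((tv_add (0 : F) 0).symm.trans (by rw [add_zero]))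
    rw [pRoot, el_eq_tv, h, map_one]; exact Commute.one_right _
  obtain ⟨-, e⟩ := S.d1_X (Units.mk0 u hu)⁻¹ 1
  rw [inv_inv, Units.val_mk0, mul_one] at e
  set d := b12 (m := m) (dS (Units.mk0 u hu)⁻¹)
  have hd := b12_dS_mem (m := m) (Units.mk0 u hu)⁻¹
  have hdi : MvP d⁻¹ 1 := inv_mem (s := Dg F m) hd
  obtain ⟨s, hs⟩ := conj_tv_scaled (hdi i) (hdi j) hij t
  simp only [Equiv.Perm.coe_one, id_eq, inv_inv] at hs
  have h := S.low1 (tv i j s) (tv_mv hij (hne i hi).1 (hne j hj).1 s) (tv_mv hij (hne i hi).2 (hne j hj).2 s)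
  have e' : tv i j t = d * tv i j s * d⁻¹ := by rw [← hs]; group
  rw [e', map_mul, map_mul, map_inv, ← e]
  exact cconj h

theorem dHyp [Finite F] : DHyp θ (piHom θ gg) := by
  have hne : ∀ x : Fin (m + 3), x.val < m + 1 → x ≠ ixQ ∧ x ≠ ixL := fun x hx => by
    constructor <;> intro e <;> have := congrArg Fin.val e <;> simp [ix_val] at this <;> omega
  refine ⟨S.pi_b12, fun i j hij hi hj t u => ⟨(S.low hij hi hj t u).eq, ?_⟩, fun A u => ⟨(S.comm_b23_p A u).eq, ?_⟩⟩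
  · rw [S.pi_el21]
    have hg : Commute (θ (tv i j t)) gg :=
      S.fix _ (tv_mv hij (hne i hi).1 (hne j hj).1 t) (tv_mv hij (hne i hi).2 (hne j hj).2 t)
    exact ((hg.mul_right (S.low hij hi hj t (-u))).mul_right hg.inv_right).eq
  · rw [S.pi_el21]
    have h := S.comm_b23_p (wS⁻¹ * A * wS) (-u)
    have e : θ (b23 A) = gg * θ (b23 (wS⁻¹ * A * wS)) * gg⁻¹ := by
      rw [S.swap]; congr 2; group
    show θ (b23 A) * _ = _ * θ (b23 A)
    rw [e]
    exact (cconj h).eq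

theorem monS_one : monS (1 : F) = wS := by
  apply Subtype.ext
  show (upS (1 : F)).1 * (lowS (-(1 : F)⁻¹)).1 * (upS (1 : F)).1 = wS.1
  rw [upS_coe, lowS_coe]
  ext i j; fin_cases i <;> fin_cases j <;> simp [wS_val, Matrix.mul_apply, Fin.sum_univ_two]

theorem gg_eq : gg = nY (piHom θ gg) (1 : F) * (θ (b23 (wS : SpecialLinearGroup (Fin 2) F)))⁻¹ := by
  obtain ⟨h0R, h0Q, h0L⟩ := zero_ne_tail S.hm
  have hL : Moves (b23 (m := m) (wS : SpecialLinearGroup (Fin 2) F)) ixL ixQ := by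
    refine tailHom_moves (i := (2 : Fin 3)) (k := 1) ⟨fun a => ?_, fun a => ?_⟩ <;>
      fin_cases a <;> simp [emb23_coe, wS_val]
  have h0 : Moves (b23 (m := m) (wS : SpecialLinearGroup (Fin 2) F)) 0 0 := eq_tail _ ⟨_, rfl⟩ 0 S.hm
  have e := mul_inv_eq_iff_eq_mul.1 (S.toFlipBase.fp_conj h0L h0 hL)
  rw [← S.toFlipBase.triangle h0L h0Q ixQL.symm, S.toFlipBase.fp_base] at e
  have hm12 : tailHom (m := m) (mon 1 2 (1 : F)) = b23 wS := by
    show _ = tailHom (emb23 wS)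
    rw [← S.monS_one]
    simp only [monS, mon, map_mul, emb23_upS, emb23_lowS]
  rw [nY, piHom_apply, hm12, S.toFlipBase.fp_inv, mul_assoc _ (θ (b23 wS)), e, ← mul_assoc, ← mul_assoc,
    S.toFlipBase.fp_sq, one_mul, mul_inv_cancel_right]

theorem hz : θ (b23 (dS (-1 : Fˣ))) * hY (piHom θ gg) (-1) = 1 := by
  have hy : hY (piHom θ gg) (-1) = nY (piHom θ gg) (1 : F) * nY (piHom θ gg) 1 := by
    rw [hY_apply, nY, ← map_mul]
    congr 1
    apply Subtype.ext
    show _ = (mon 1 2 (1 : F) * mon 1 2 1).1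
    rw [mon_mul (by decide) one_ne_zero one_ne_zero, emb23_coe]
    ext x y; fin_cases x <;> fin_cases y <;> simp [dS_val]
  have hn : nY (piHom θ gg) (1 : F) = gg * θ (b23 wS) := eq_mul_inv_iff_mul_eq.1 S.gg_eq |>.symm
  have hw := S.swap (wS : SpecialLinearGroup (Fin 2) F)
  rw [mul_inv_cancel_right, S.toFlipBase.gg_eq_inv] at hw
  rw [hy, hn, show gg * θ (b23 wS) * (gg * θ (b23 wS)) = gg * θ (b23 wS) * gg * θ (b23 wS) by group, hw,
    ← map_mul, ← map_mul, ← map_mul, ← map_mul]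
  rw [show (dS (-1 : Fˣ) : SpecialLinearGroup (Fin 2) F) * (wS * wS) = 1 by
    apply Subtype.ext
    show (dS (-1 : Fˣ)).1 * (wS.1 * wS.1) = 1
    ext x y; fin_cases x <;> fin_cases y <;> simp [dS_val, wS_val, Matrix.mul_apply, Fin.sum_univ_two],
    map_one, map_one]

theorem gg_mem : gg ∈ θ.range ⊔ (piHom θ gg).range := by
  have h : nY (piHom θ gg) (1 : F) * (θ (b23 (wS : SpecialLinearGroup (Fin 2) F)))⁻¹ ∈
      θ.range ⊔ (piHom θ gg).range :=
    mul_mem (Subgroup.mem_sup_right ⟨_, rfl⟩) (inv_mem (Subgroup.mem_sup_left ⟨_, rfl⟩))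
  exact (congrArg (· ∈ θ.range ⊔ (piHom θ gg).range) S.gg_eq).mpr h

end FlipData

end CfsgLib.OmegaPlusPres
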