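import Cfsg.Agent.Lib.OmegaPlusPres.Flip
import Cfsg.Agent.Lib.SLnPres.Main
import Cfsg.Agent.S2402
import Cfsg.Agent.S2403

/-!
A few commutations with `r = θ(b₂₃ w)⁻¹ g` give the relations on the flip.
-/

set_option autoImplicit false
set_option linter.unusedSectionVars false

namespace CfsgLib.OmegaPlusPres

open Matrix CfsgLib.ClassicalLinear CfsgLib.SectRank.CT
open CfsgLib.SL2Pres (dS wS fS)
open scoped commutatorElement

universe u v

variable {F : Type u} [Field F] {m : ℕ}

local notation "SN" => SpecialLinearGroup (Fin (m + 3)) F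

/-- The first block. -/
def hd : SpecialLinearGroup (Fin (m + 1)) F →* SpecialLinearGroup (Fin (m + 3)) F := headHom (k := 2)

/-- Fixing the last two coordinates. -/
def Fx (x : SpecialLinearGroup (Fin (m + 3)) F) : Prop := Moves x ixQ ixQ ∧ Moves x ixL ixL

theorem hd_fix (A : SpecialLinearGroup (Fin (m + 1)) F) : Fx (hd A) := by
  have h : ∀ j : Fin 2, Moves (hd A) (Fin.natAdd (m + 1) j) (Fin.natAdd (m + 1) j) := fun j => by
    constructor <;> intro (b : Fin (m + 1 + 2)) <;>
      show Matrix.reindex finSumFinEquiv finSumFinEquiv (Matrix.fromBlocks A.1 0 0 1) _ _ = _ <;>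
      induction b using Fin.addCases <;> simp [Matrix.one_apply, Fin.ext_iff, eq_comm] <;> intro h <;> omega
  exact ⟨h 0, h 1⟩

theorem exists_hd {x : SN} (hx : Fx x) : ∃ A, hd A = x :=
  mem_of_fix_tail (m := m + 1) (k := 2) (H := (hd (F := F) (m := m)).range)
    (fun i j hij t => ⟨tv i j t, headHom_tv hij t⟩) (g := x) (fun j => by fin_cases j; exacts [hx.1, hx.2])

theorem fix_comm_b23 {x : SN} (hx : Fx x) (A : SpecialLinearGroup (Fin 2) F) : Commute x (b23 A) := by
  have key : (Subgroup.centralizer {x}).comap (b23 (F := F) (m := m)) = ⊤ := by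
    rw [eq_top_iff, ← closure_transvections_eq_top (ι := Fin 2) (F := F), Subgroup.closure_le]
    rintro _ ⟨i, j, hij, t, rfl⟩
    rw [SetLike.mem_coe, Subgroup.mem_comap, Subgroup.mem_centralizer_singleton_iff]
    fin_cases i <;> fin_cases j
    · exact absurd rfl hij
    · show b23 (upS t) * _ = _ * b23 (upS t)
      rw [b23_upS]; exact (mul_inv_eq_iff_eq_mul.1 (conj_tv hx.1 hx.2 ixQL t)).symm
    · show b23 (lowS t) * _ = _ * b23 (lowS t)
      rw [b23_lowS]; exact (mul_inv_eq_iff_eq_mul.1 (conj_tv hx.2 hx.1 ixQL.symm t)).symm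
    · exact absurd rfl hij
  exact (Subgroup.mem_centralizer_singleton_iff.1
    (show A ∈ (Subgroup.centralizer {x}).comap (b23 (F := F) (m := m)) from key ▸ Subgroup.mem_top A)).symm

/-- A normal subgroup of `SL_n(F)`, `n ≥ 3`, with a transvection is everything. -/
theorem eq_top_of_tv {n : ℕ} (h3 : 3 ≤ n) (N : Subgroup (SpecialLinearGroup (Fin n) F)) (hN : N.Normal)
    {p q : Fin n} (hpq : p ≠ q) {c : F} (hc : c ≠ 0) (h : tv p q c ∈ N) : N = ⊤ := by
  have third : ∀ a b : Fin n, ∃ k, k ≠ a ∧ k ≠ b := fun a b => by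
    obtain ⟨k, hk⟩ : ({a, b} : Finset (Fin n))ᶜ.Nonempty := by
      rw [← Finset.card_pos, Finset.card_compl, Fintype.card_fin]
      have := Finset.card_le_two (a := a) (b := b)
      omega
    simp only [Finset.mem_compl, Finset.mem_insert, Finset.mem_singleton, not_or] at hk
    exact ⟨k, hk.1, hk.2⟩
  obtain ⟨r, hrp, hrq⟩ := third p q
  refine eq_top_of_transvection_mem fun i j hij t => ?_
  obtain ⟨k, hki, hkj⟩ := third i j
  obtain ⟨g, g1, g2⟩ := exists_moves (F := F) hpq hrp hrq hki.symm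
  have hik : tv i k c ∈ N := by rw [← conj_tv g1 g2 hpq c]; exact hN.conj_mem _ h g
  rw [tv, dif_neg hki.symm] at hik
  have hm : ⁅SpecialLinearGroup.transvection hki.symm c, SpecialLinearGroup.transvection hkj (c⁻¹ * t)⁆ ∈ N := by
    rw [commutatorElement_def, show ∀ a b : SpecialLinearGroup (Fin n) F, a * b * a⁻¹ * b⁻¹ = a * (b * a⁻¹ * b⁻¹)
      from fun a b => by group]
    exact mul_mem hik (hN.conj_mem _ (inv_mem hik) _)
  rwa [commutator_transvection hij, ← mul_assoc, mul_inv_cancel₀ hc, one_mul] at hm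

/-- Two generators modulo the centre, the first in no proper normal subgroup. -/
theorem exists_head_gens [Fintype F] (h2 : 2 ≤ m) :
    ∃ x1 x2 : SpecialLinearGroup (Fin (m + 1)) F,
      Subgroup.closure ({x1, x2} : Set _) ⊔ Subgroup.center _ = ⊤ ∧
      ∀ N : Subgroup (SpecialLinearGroup (Fin (m + 1)) F), N.Normal → x1 ∈ N → N = ⊤ := by
  have hm : 1 ≤ m := by omega
  let G := SpecialLinearGroup (Fin (m + 1)) F
  have h01 : (0 : Fin (m + 1)) ≠ 1 := by
    obtain ⟨j, rfl⟩ : ∃ j, m = j + 1 := ⟨m - 1, by omega⟩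
    simp
  let x : G := SpecialLinearGroup.transvection h01 1
  have hw : ∃ w : G, (w : Matrix (Fin (m + 1)) (Fin (m + 1)) F) =
      Matrix.of (fun i j => if j.val = i.val + 1 then 1 else if i.val = m ∧ j.val = 0 then (-1) ^ m else 0) := by
    set M : Matrix (Fin (m + 1)) (Fin (m + 1)) F :=
      Matrix.of (fun i j => if j.val = i.val + 1 then 1 else if i.val = m ∧ j.val = 0 then (-1) ^ m else 0)
    have hM : M = (finRotate (m + 1)).permMatrix F *
        Matrix.diagonal (fun j => if j.val = 0 then (-1 : F) ^ m else 1) := by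
      ext i j
      rw [Matrix.mul_diagonal]
      simp only [M, Matrix.of_apply, Equiv.Perm.permMatrix, PEquiv.toMatrix_apply, Equiv.toPEquiv_apply,
        Option.mem_some_iff, finRotate_apply, Fin.ext_iff, Fin.val_add_one]
      by_cases hi : (i : ℕ) = m
      · have hj := j.isLt
        simp only [hi, Fin.val_last, if_true, true_and]
        by_cases hj0 : (j : ℕ) = 0
        · simp [hj0]
        · rw [if_neg (by omega), if_neg hj0, if_neg (Ne.symm hj0), zero_mul]
      · simp only [hi, Fin.val_last, if_false, false_and]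
        by_cases hj0 : (j : ℕ) = i.val + 1
        · rw [if_pos hj0, if_pos hj0.symm, if_neg (by omega), one_mul]
        · rw [if_neg hj0, if_neg (Ne.symm hj0), zero_mul]
    refine ⟨⟨M, ?_⟩, rfl⟩
    rw [hM, Matrix.det_mul, Matrix.det_permutation, Matrix.det_diagonal, sign_finRotate,
      Fin.prod_univ_succ]
    simp [← mul_pow]
  obtain ⟨w, hw⟩ := hw
  by_cases hF : 3 < Fintype.card F
  · obtain ⟨k, hk⟩ := IsCyclic.exists_generator (α := Fˣ)
    let h : G := SpecialLinearGroup.diag2n h01 (k : F) k.ne_zero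
    have hh : (h : Matrix (Fin (m + 1)) (Fin (m + 1)) F) = Matrix.diagonal
        (fun i => if i.val = 0 then (k : F) else if i.val = 1 then ((k⁻¹ : Fˣ) : F) else 1) := by
      rw [SpecialLinearGroup.diag2n_coe]
      congr 1
      funext i
      have h1 : ((1 : Fin (m + 1)) : ℕ) = 1 := Nat.mod_eq_of_lt (a := 1) (b := m + 1) (by omega)
      simp only [Fin.ext_iff, h1, Fin.val_zero, Units.val_inv_eq_inv_val]
    have hk2 : (k : F) ^ 2 - 1 ≠ 0 := by
      intro e
      have hk' : k ^ 2 = 1 := Units.ext (by simpa [sub_eq_zero] using e)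
      have h1 : orderOf k = Nat.card Fˣ := orderOf_eq_card_of_forall_mem_zpowers hk
      have h2 := orderOf_le_of_pow_eq_one (by norm_num) hk'
      rw [h1, Nat.card_units, Nat.card_eq_fintype_card] at h2
      omega
    refine ⟨h, x * w, Cfsg.Agent.S2402.result hF m hm k hk h x w hh rfl hw, fun N hN h1 => ?_⟩
    refine eq_top_of_tv (by omega) N hN h01 hk2 ?_
    have hc := commutator_diag2n_transvection h01 (k : F) k.ne_zero 1
    rw [mul_one] at hc
    rw [tv, dif_neg h01, ← hc, commutatorElement_def, show ∀ a b : G, a * b * a⁻¹ * b⁻¹ = a * (b * a⁻¹ * b⁻¹)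
      from fun a b => by group]
    exact mul_mem h1 (hN.conj_mem _ (inv_mem h1) _)
  · refine ⟨x, w, Cfsg.Agent.S2403.result (by omega) m hm x w rfl hw, fun N hN h1 => ?_⟩
    exact eq_top_of_tv (by omega) N hN h01 (one_ne_zero (α := F)) (by rwa [tv, dif_neg h01])

/-- Products of an element fixing the last two coordinates and one of the last block. -/
def Blk (x : SpecialLinearGroup (Fin (m + 3)) F) : Prop :=
  ∃ g A, Fx g ∧ x = g * b23 A

variable {Γ : Type v} [Group Γ]

/-- The flip without its monomial part. -/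
def rr (θ : SpecialLinearGroup (Fin (m + 3)) F →* Γ) (gg : Γ) : Γ := (θ (b23 wS))⁻¹ * gg

theorem flipBase_of {θ : SN →* Γ} {gg : Γ} (hm : 1 ≤ m) (sq : gg * gg = 1)
    (tri : fp θ gg 0 ixL * gg = fp θ gg 0 ixQ) (hh : ∀ A, Commute (θ (hd A)) (rr θ gg))
    (hb : ∀ A, Commute (θ (b23 A)) (rr θ gg)) : FlipBase θ gg := by
  have hg : gg = θ (b23 wS) * rr θ gg := by rw [rr, mul_inv_cancel_left]
  refine ⟨hm, sq, fun x hq hl => ?_, fun A => ?_, tri⟩
  · obtain ⟨A, rfl⟩ := exists_hd ⟨hq, hl⟩
    rw [hg]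
    exact ((fix_comm_b23 (hd_fix A) wS).map θ).mul_right (hh A)
  · rw [hg, map_mul, map_mul, map_mul, map_mul, map_inv, map_inv, _root_.mul_inv_rev,
      show ∀ w r a : Γ, w * r * a * (r⁻¹ * w⁻¹) = w * (r * a * r⁻¹) * w⁻¹ from fun w r a => by group,
      ← (hb A).eq, mul_inv_cancel_right]

/-- The few relations. -/
theorem exists_rels.{a, b} {F : Type a} [Field F] [Finite F] {m : ℕ} (hm : 1 ≤ m) :
    ∃ cs ls : List (SpecialLinearGroup (Fin (m + 3)) F),
      cs.length + ls.length ≤ (if m = 1 then 6 else 3) ∧ (∀ x ∈ cs, Blk x) ∧ (∀ x ∈ ls, Fx x) ∧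
      ∀ {Γ : Type b} [Group Γ] (θ : SpecialLinearGroup (Fin (m + 3)) F →* Γ) (gg : Γ),
        gg * gg = 1 → fp θ gg 0 ixL * gg = fp θ gg 0 ixQ →
        Commute (θ (tv ixQ ixL 1)) (pRoot θ gg 1) →
        (∀ x ∈ cs, Commute (θ x) (rr θ gg)) → (∀ x ∈ ls, Commute (θ x) (pRoot θ gg 1)) →
        FlipData θ gg := by
  have : Fintype F := Fintype.ofFinite F
  obtain ⟨ω, hω⟩ := IsCyclic.exists_generator (α := Fˣ)
  let τ : List (SpecialLinearGroup (Fin 2) F) := (SLnPres.tauWords ω).map (FreeGroup.lift (fS ω))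
  have hτ : ∀ M : Subgroup (SpecialLinearGroup (Fin 2) F), (∀ t ∈ τ, t ∈ M) → M = ⊤ := fun M hM =>
    SLnPres.eq_top_of_tauWords hω (fun w hw => hM _ (List.mem_map_of_mem hw))
  obtain ⟨t1, t2, hτ2⟩ : ∃ t1 t2, τ = [t1, t2] := by
    simp only [τ, SLnPres.tauWords]
    split <;> exact ⟨_, _, rfl⟩
  have one_fx : Fx (1 : SpecialLinearGroup (Fin (m + 3)) F) := ⟨moves_one _, moves_one _⟩
  rcases (show m = 1 ∨ 2 ≤ m by omega) with rfl | h2
  · refine ⟨τ.map hd ++ τ.map b23, τ.map hd, ?_, ?_, ?_, ?_⟩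
    · simp [hτ2]
    · simp only [List.mem_append, List.mem_map]
      rintro _ (⟨t, -, rfl⟩ | ⟨t, -, rfl⟩)
      exacts [⟨hd t, 1, hd_fix t, by simp⟩, ⟨1, t, one_fx, by simp⟩]
    · simp only [List.mem_map]
      rintro _ ⟨t, -, rfl⟩
      exact hd_fix t
    intro Γ _ θ gg sq tri top hcs hls
    have hall : ∀ (r : Γ) (f : SpecialLinearGroup (Fin 2) F →* SpecialLinearGroup (Fin (1 + 3)) F),
        (∀ t ∈ τ, Commute (θ (f t)) r) → ∀ A, Commute (θ (f A)) r := fun r f h A => by
      have key := hτ ((Subgroup.centralizer {r}).comap (θ.comp f)) fun t ht =>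
        Subgroup.mem_centralizer_singleton_iff.2 (h t ht).eq
      exact Subgroup.mem_centralizer_singleton_iff.1
        (show A ∈ (Subgroup.centralizer {r}).comap (θ.comp f) from key ▸ Subgroup.mem_top A)
    refine ⟨flipBase_of le_rfl sq tri (hall _ hd fun t ht => hcs _ ?_) (hall _ b23 fun t ht => hcs _ ?_), top, ?_⟩
    · exact List.mem_append_left _ (List.mem_map_of_mem ht)
    · exact List.mem_append_right _ (List.mem_map_of_mem ht)
    · intro x hq hl
      obtain ⟨A, rfl⟩ := exists_hd (m := 1) ⟨hq, hl⟩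
      exact hall _ hd (fun t ht => hls _ (List.mem_map_of_mem ht)) A
  · obtain ⟨x1, x2, hgen, hx1⟩ := exists_head_gens (F := F) h2
    refine ⟨[hd x1, hd x2 * b23 t1, b23 t2], [], ?_, ?_, by simp, ?_⟩
    · rw [if_neg (by omega)]; simp
    · intro x hx
      simp only [List.mem_cons, List.not_mem_nil, or_false] at hx
      rcases hx with rfl | rfl | rfl
      exacts [⟨_, 1, hd_fix x1, by simp⟩, ⟨_, _, hd_fix x2, rfl⟩, ⟨1, t2, one_fx, by simp⟩]
    intro Γ _ θ gg sq tri top hcs _
    set C := (Subgroup.centralizer {rr θ gg}).comap θ with hC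
    have hmem : ∀ x, Commute (θ x) (rr θ gg) → x ∈ C := fun x h => Subgroup.mem_centralizer_singleton_iff.2 h.eq
    have hmem' : ∀ x ∈ C, Commute (θ x) (rr θ gg) := fun x h => Subgroup.mem_centralizer_singleton_iff.1 h
    have c1 : hd x1 ∈ C := hmem _ (hcs _ (by simp))
    have c12 : hd x2 * b23 t1 ∈ C := hmem _ (hcs _ (by simp))
    have c2 : b23 t2 ∈ C := hmem _ (hcs _ (by simp))
    set N := C.comap hd with hN
    have hz : ∀ n, Commute (hd (F := F) (m := m) n) (b23 t1) := fun n => fix_comm_b23 (hd_fix n) t1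
    have n2 : x2 ∈ Subgroup.normalizer (N : Set (SpecialLinearGroup (Fin (m + 1)) F)) := by
      rw [Subgroup.mem_normalizer_iff]
      intro n
      have e : hd (x2 * n * x2⁻¹) = hd x2 * b23 t1 * hd n * (hd x2 * b23 t1)⁻¹ := by
        rw [map_mul, map_mul, map_inv, mul_assoc (hd x2) (b23 t1), ← (hz n).eq]
        group
      show hd n ∈ C ↔ hd (x2 * n * x2⁻¹) ∈ C
      rw [e, C.mul_mem_cancel_right (inv_mem c12), C.mul_mem_cancel_left c12]
    have n1 : x1 ∈ Subgroup.normalizer (N : Set (SpecialLinearGroup (Fin (m + 1)) F)) :=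
      Subgroup.le_normalizer c1
    have hnorm : N.Normal := by
      rw [← Subgroup.normalizer_eq_top_iff, eq_top_iff, ← hgen, sup_le_iff]
      refine ⟨(Subgroup.closure_le _).2 ?_, fun z hz' => ?_⟩
      · rintro _ (rfl | rfl)
        exacts [n1, n2]
      · rw [Subgroup.mem_normalizer_iff]
        intro n
        rw [← Subgroup.mem_center_iff.1 hz' n, mul_inv_cancel_right]
    have htop := hx1 N hnorm c1
    have hh : ∀ A, Commute (θ (hd A)) (rr θ gg) := fun A =>
      hmem' _ (show A ∈ N from htop ▸ Subgroup.mem_top A)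
    have c1' : b23 t1 ∈ C := (C.mul_mem_cancel_left (hmem _ (hh x2))).1 c12
    have key := hτ (C.comap b23) (by
      rw [hτ2]
      intro t ht
      simp only [List.mem_cons, List.not_mem_nil, or_false] at ht
      rcases ht with rfl | rfl
      exacts [c1', c2])
    have hb : ∀ A, Commute (θ (b23 A)) (rr θ gg) := fun A =>
      hmem' _ (show A ∈ C.comap b23 from key ▸ Subgroup.mem_top A)
    have S := flipBase_of hm sq tri hh hb
    exact ⟨S, top, fun x hq hl => S.low_of_two_le h2 hq hl 1⟩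

end CfsgLib.OmegaPlusPres
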