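import Mathlib

/-!
A group generated by a symmetric group and one further involution with the braid relations of type `D`
acts faithfully on signed coordinates.
-/

set_option autoImplicit false

namespace CfsgLib.OmegaPlusPres

open Equiv

universe u

/-- The underlying coordinate. -/
def baseIdx {α : Type} : α ⊕ α → α := Sum.elim id id

theorem baseIdx_map {α : Type} (σ : Perm α) (u : α ⊕ α) :
    baseIdx (Equiv.sumCongr σ σ u) = σ (baseIdx u) := by rcases u with a | a <;> rfl

theorem baseIdx_swap {α : Type} (u : α ⊕ α) : baseIdx (Sum.swap u) = baseIdx u := by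
  rcases u with a | a <;> rfl

theorem perm_to_three {α : Type} [DecidableEq α] {r q l a b c : α} (hrq : r ≠ q) (hrl : r ≠ l) (hql : q ≠ l)
    (hab : a ≠ b) (hac : a ≠ c) (hbc : b ≠ c) : ∃ σ : Perm α, σ r = a ∧ σ q = b ∧ σ l = c := by
  let s1 := Equiv.swap r a
  let s2 := s1.trans (Equiv.swap (s1 q) b)
  have e1 : s1 r = a := Equiv.swap_apply_left r a
  have hq1 : s1 q ≠ a := fun e => hrq (s1.injective (e1.trans e.symm))
  have e2r : s2 r = a := by
    show Equiv.swap (s1 q) b (s1 r) = a
    rw [e1]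
    exact Equiv.swap_apply_of_ne_of_ne hq1.symm hab
  have e2q : s2 q = b := Equiv.swap_apply_left (s1 q) b
  refine ⟨s2.trans (Equiv.swap (s2 l) c), ?_, ?_, Equiv.swap_apply_left (s2 l) c⟩
  · show Equiv.swap (s2 l) c (s2 r) = a
    rw [e2r]
    exact Equiv.swap_apply_of_ne_of_ne (fun e => hrl (s2.injective (e2r.trans e))) hac
  · show Equiv.swap (s2 l) c (s2 q) = b
    rw [e2q]
    exact Equiv.swap_apply_of_ne_of_ne (fun e => hql (s2.injective (e2q.trans e))) hbc

/-- The relations. -/
structure WeylD (α : Type) [DecidableEq α] (Q : Type u) [Group Q] (r q l : α) where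
  ι : Perm α →* Q
  y : Q
  act : Q →* Perm (α ⊕ α)
  ne : r ≠ q ∧ r ≠ l ∧ q ≠ l
  sq : y * y = 1
  comm_swap : Commute (ι (swap q l)) y
  comm_fix : ∀ σ : Perm α, σ q = q → σ l = l → Commute (ι σ) y
  braid : y * ι (swap r q) * y = ι (swap r q) * y * ι (swap r q)
  act_ι : ∀ σ u, act (ι σ) u = Equiv.sumCongr σ σ u
  act_r : ∀ u, act (ι (swap q l) * y) u = if baseIdx u = q ∨ baseIdx u = l then Sum.swap u else u
  gen : ι.range ⊔ Subgroup.zpowers y = ⊤

namespace WeylD

variable {α : Type} [Fintype α] [DecidableEq α] {Q : Type u} [Group Q] {r q l : α} (S : WeylD α Q r q l)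

/-- The sign change of the last two coordinates. -/
def flip0 : Q := S.ι (swap q l) * S.y

theorem flip0_sq : S.flip0 * S.flip0 = 1 := by
  rw [flip0, mul_assoc, ← mul_assoc S.y, ← S.comm_swap.eq, mul_assoc (S.ι (swap q l)) S.y, S.sq, mul_one,
    ← map_mul, swap_mul_self, map_one]

theorem flip0_comm {σ : Perm α} (h : σ q = q ∧ σ l = l ∨ σ q = l ∧ σ l = q) : Commute (S.ι σ) S.flip0 := by
  have fixc : ∀ τ : Perm α, τ q = q → τ l = l → Commute (S.ι τ) S.flip0 := fun τ h1 h2 => by
    refine Commute.mul_right ?_ (S.comm_fix τ h1 h2)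
    show _ * _ = _ * _
    rw [← map_mul, ← map_mul, mul_swap_eq_swap_mul, h1, h2]
  rcases h with ⟨h1, h2⟩ | ⟨h1, h2⟩
  · exact fixc σ h1 h2
  · have e : σ = swap q l * (swap q l * σ) := by rw [← mul_assoc, swap_mul_self, one_mul]
    rw [e, map_mul]
    refine Commute.mul_left ?_ (fixc _ (by simp [h1]) (by simp [h2]))
    exact (Commute.refl _).mul_right S.comm_swap

open scoped Classical in
/-- The sign change of a pair. -/
noncomputable def flipPair (a b : α) : Q :=
  if h : ∃ σ : Perm α, σ q = a ∧ σ l = b then S.ι h.choose * S.flip0 * (S.ι h.choose)⁻¹ else 1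

theorem flipPair_eq {σ : Perm α} {a b : α} (h : σ q = a ∧ σ l = b) :
    S.flipPair a b = S.ι σ * S.flip0 * (S.ι σ)⁻¹ := by
  have h' : ∃ σ : Perm α, σ q = a ∧ σ l = b := ⟨σ, h⟩
  rw [flipPair, dif_pos h']
  obtain ⟨e1, e2⟩ := h'.choose_spec
  set τ := h'.choose
  have hc := (S.flip0_comm (σ := σ⁻¹ * τ) (Or.inl ⟨by simp [Perm.mul_apply, e1, ← h.1],
    by simp [Perm.mul_apply, e2, ← h.2]⟩)).eq
  rw [show S.ι τ = S.ι σ * S.ι (σ⁻¹ * τ) by rw [← map_mul, mul_inv_cancel_left]]
  generalize S.ι (σ⁻¹ * τ) = c at hc ⊢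
  rw [mul_assoc (S.ι σ) c, hc]
  group

include S in
theorem exists_perm {a b : α} (hab : a ≠ b) : ∃ σ : Perm α, σ q = a ∧ σ l = b := by
  refine ⟨swap (swap q a l) b * swap q a, ?_, by simp⟩
  rw [Perm.mul_apply, swap_apply_left]
  refine swap_apply_of_ne_of_ne (fun e => S.ne.2.2 ?_) hab
  exact (swap q a).injective (by rw [swap_apply_left, ← e])

theorem flipPair_symm {a b : α} (hab : a ≠ b) : S.flipPair b a = S.flipPair a b := by
  obtain ⟨σ, h⟩ := S.exists_perm hab
  rw [S.flipPair_eq h, S.flipPair_eq (σ := σ * swap q l) (by simp [h.1, h.2]), map_mul,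
    mul_assoc (S.ι σ), (S.flip0_comm (σ := swap q l) (Or.inr ⟨swap_apply_left _ _, swap_apply_right _ _⟩)).eq]
  group

theorem conj_flipPair (σ : Perm α) {a b : α} (hab : a ≠ b) :
    S.ι σ * S.flipPair a b * (S.ι σ)⁻¹ = S.flipPair (σ a) (σ b) := by
  obtain ⟨τ, h⟩ := S.exists_perm hab
  rw [S.flipPair_eq h, S.flipPair_eq (σ := σ * τ) (by simp [h.1, h.2]), map_mul]
  group

theorem flipPair_sq (a b : α) : S.flipPair a b * S.flipPair a b = 1 := by
  rw [flipPair]
  split
  · rw [show ∀ g f : Q, g * f * g⁻¹ * (g * f * g⁻¹) = g * (f * f) * g⁻¹ from fun g f => by group, S.flip0_sq,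
      mul_one, mul_inv_cancel]
  · exact one_mul 1

theorem act_flipPair {a b : α} (hab : a ≠ b) (u : α ⊕ α) :
    S.act (S.flipPair a b) u = if baseIdx u = a ∨ baseIdx u = b then Sum.swap u else u := by
  obtain ⟨σ, h1, h2⟩ := S.exists_perm hab
  rw [S.flipPair_eq ⟨h1, h2⟩, ← map_inv, map_mul, map_mul, Perm.mul_apply, Perm.mul_apply, S.act_ι, flip0,
    S.act_r, S.act_ι]
  subst h1 h2
  rcases u with c | c <;>
    simp only [Equiv.sumCongr_apply, Sum.map_inl, Sum.map_inr, baseIdx, Sum.elim_inl, Sum.elim_inr, id_eq,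
      Perm.inv_def, Equiv.symm_apply_eq] <;>
    split <;> rename_i h <;> simp [h]

theorem triangle_base : S.flipPair q l * S.flipPair r l = S.flipPair r q := by
  obtain ⟨hrq, hrl, hql⟩ := S.ne
  have e0 : S.flipPair q l = S.flip0 := by
    rw [S.flipPair_eq (σ := 1) (a := q) (b := l) ⟨rfl, rfl⟩, map_one, one_mul, inv_one, mul_one]
  rw [e0, S.flipPair_eq (σ := swap r q) ⟨swap_apply_right _ _, swap_apply_of_ne_of_ne hrl.symm hql.symm⟩,
    S.flipPair_eq (σ := swap q l * swap r q) ⟨by simp [swap_apply_of_ne_of_ne hrq hrl],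
      by simp [swap_apply_of_ne_of_ne hrl.symm hql.symm]⟩, flip0, map_mul, _root_.mul_inv_rev]
  simp only [← map_inv, swap_inv]
  have ha : S.ι (swap r q) * S.ι (swap r q) = 1 := by rw [← map_mul, swap_mul_self, map_one]
  have hb : S.ι (swap q l) * S.ι (swap q l) = 1 := by rw [← map_mul, swap_mul_self, map_one]
  have haba : S.ι (swap r q) * S.ι (swap q l) * S.ι (swap r q) =
      S.ι (swap q l) * S.ι (swap r q) * S.ι (swap q l) := by
    simp only [← map_mul]
    congr 1
    have e1 : swap r q * swap q l * swap r q = swap r l := by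
      nth_rw 2 [← swap_inv r q]
      rw [← Equiv.swap_apply_apply, swap_apply_right, swap_apply_of_ne_of_ne hrl.symm hql.symm]
    have e2 : swap q l * swap r q * swap q l = swap r l := by
      nth_rw 2 [← swap_inv q l]
      rw [← Equiv.swap_apply_apply, swap_apply_of_ne_of_ne hrq hrl, swap_apply_left]
    rw [e1, e2]
  have hby := S.comm_swap.eq
  have hbr := S.braid
  generalize S.ι (swap r q) = a at *
  generalize S.ι (swap q l) = b at *
  generalize S.y = y at *
  calc b * y * (a * (b * y) * a) = b * y * a * (y * b) * a := by rw [hby]; group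
    _ = b * (y * a * y) * b * a := by group
    _ = b * (a * y * a) * b * a := by rw [hbr]
    _ = b * a * y * (a * b * a) := by group
    _ = b * a * y * (b * a * b) := by rw [haba]
    _ = b * a * (y * b) * a * b := by group
    _ = b * a * (b * y) * (a * b) := by rw [← hby]; group

theorem triangle {a b c : α} (hab : a ≠ b) (hac : a ≠ c) (hbc : b ≠ c) :
    S.flipPair a b * S.flipPair c b = S.flipPair a c := by
  obtain ⟨hrq, hrl, hql⟩ := S.ne
  obtain ⟨σ, h1, h2, h3⟩ := perm_to_three hrq hrl hql hac.symm hbc.symm hab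
  have e := congrArg (fun z => S.ι σ * z * (S.ι σ)⁻¹) S.triangle_base
  rw [show ∀ g x y : Q, g * (x * y) * g⁻¹ = g * x * g⁻¹ * (g * y * g⁻¹) from fun g x y => by group,
    S.conj_flipPair σ hql, S.conj_flipPair σ hrl, S.conj_flipPair σ hrq, h1, h2, h3] at e
  rw [e, S.flipPair_symm hac]

/-- The act of the group is faithful. -/
theorem act_injective : Function.Injective S.act := by
  classical
  obtain ⟨hrq, hrl, hql⟩ := S.ne
  set E := Subgroup.closure {z | ∃ b, b ≠ r ∧ S.flipPair r b = z} with hE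
  have hpair : ∀ a b, a ≠ b → S.flipPair a b ∈ E := by
    intro a b hab
    by_cases ha : a = r
    · subst ha; exact Subgroup.subset_closure ⟨b, hab.symm, rfl⟩
    by_cases hb : b = r
    · subst hb; rw [S.flipPair_symm hab.symm]; exact Subgroup.subset_closure ⟨a, ha, rfl⟩
    have e := S.triangle ha hab (Ne.symm hb)
    rw [← e, S.flipPair_symm (Ne.symm ha)]
    exact mul_mem (Subgroup.subset_closure ⟨a, ha, rfl⟩) (by
      rw [S.flipPair_symm (Ne.symm hb)]
      exact Subgroup.subset_closure ⟨b, hb, rfl⟩)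
  have hnorm : S.ι.range ≤ Subgroup.normalizer (E : Set Q) := by
    have h1 : ∀ σ, ∀ z ∈ E, S.ι σ * z * (S.ι σ)⁻¹ ∈ E := by
      intro σ
      suffices E ≤ E.comap (MulAut.conj (S.ι σ)).toMonoidHom from fun z hz => this hz
      rw [hE, Subgroup.closure_le]
      rintro _ ⟨b, hb, rfl⟩
      show S.ι σ * _ * (S.ι σ)⁻¹ ∈ E
      rw [S.conj_flipPair σ hb.symm]
      exact hpair _ _ fun e => hb (σ.injective e).symm
    rintro _ ⟨σ, rfl⟩
    rw [Subgroup.mem_normalizer_iff]
    refine fun z => ⟨h1 σ z, fun hz => ?_⟩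
    have := h1 σ⁻¹ _ hz
    rwa [map_inv, inv_inv, show (S.ι σ)⁻¹ * (S.ι σ * z * (S.ι σ)⁻¹) * S.ι σ = z by group] at this
  have hcomm : ∀ b c, b ≠ r → c ≠ r → Commute (S.flipPair r b) (S.flipPair r c) := by
    intro b c hb hc
    rcases eq_or_ne b c with rfl | hbc
    · exact Commute.refl _
    have e : S.flipPair r b * S.flipPair r c = S.flipPair b c := by
      rw [S.flipPair_symm hb, S.flipPair_symm hc, S.triangle hb hbc hc.symm]
    have h := S.flipPair_sq b c
    rw [← e] at h
    calc S.flipPair r b * S.flipPair r c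
        = (S.flipPair r b * S.flipPair r c)⁻¹ := eq_inv_of_mul_eq_one_left h
      _ = _ := by
        rw [_root_.mul_inv_rev, inv_eq_of_mul_eq_one_left (S.flipPair_sq r c),
          inv_eq_of_mul_eq_one_left (S.flipPair_sq r b)]
  have key : ∀ (T : Finset α), r ∉ T → ∀ z ∈ Subgroup.closure ((fun b => S.flipPair r b) '' (T : Set α)),
      (∀ u, baseIdx (S.act z u) = baseIdx u) ∧
        (∀ u, baseIdx u ∉ T → baseIdx u ≠ r → S.act z u = u) ∧ (S.act z = 1 → z = 1) := by
    intro T
    induction T using Finset.induction_on with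
    | empty =>
      intro _ z hz
      simp only [Finset.coe_empty, Set.image_empty, Subgroup.closure_empty, Subgroup.mem_bot] at hz
      subst hz
      exact ⟨fun u => by simp, fun u _ _ => by simp, fun _ => rfl⟩
    | insert b T hb ih =>
      intro hr z hz
      rw [Finset.mem_insert, not_or] at hr
      set x := S.flipPair r b with hx
      set U := Subgroup.closure ((fun c => S.flipPair r c) '' (T : Set α)) with hU
      have hcU : ∀ w ∈ U, Commute x w := by
        intro w hw
        induction hw using Subgroup.closure_induction with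
        | mem w hw =>
          obtain ⟨c, hc, rfl⟩ := hw
          exact hcomm b c (Ne.symm hr.1) fun e => hr.2 (e ▸ hc)
        | one => exact Commute.one_right _
        | mul _ _ _ _ h1 h2 => exact h1.mul_right h2
        | inv _ _ h => exact h.inv_right
      have hsplit : z ∈ U ∨ ∃ w ∈ U, z = x * w := by
        induction hz using Subgroup.closure_induction with
        | mem w hw =>
          obtain ⟨c, hc, rfl⟩ := hw
          simp only [Finset.coe_insert, Set.mem_insert_iff] at hc
          rcases hc with rfl | hc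
          · exact Or.inr ⟨1, one_mem _, (mul_one _).symm⟩
          · exact Or.inl (Subgroup.subset_closure ⟨c, hc, rfl⟩)
        | one => exact Or.inl (one_mem _)
        | mul a a' _ _ h1 h2 =>
          rcases h1 with h1 | ⟨w, hw, rfl⟩ <;> rcases h2 with h2 | ⟨w', hw', rfl⟩
          · exact Or.inl (mul_mem h1 h2)
          · exact Or.inr ⟨a * w', mul_mem h1 hw', by rw [← mul_assoc, ← (hcU a h1).eq, mul_assoc]⟩
          · exact Or.inr ⟨w * a', mul_mem hw h2, mul_assoc _ _ _⟩
          · refine Or.inl ?_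
            rw [mul_assoc x, ← mul_assoc w, ← (hcU w hw).eq, mul_assoc x w, ← mul_assoc x x, hx, S.flipPair_sq,
              one_mul]
            exact mul_mem hw hw'
        | inv a _ h =>
          rcases h with h | ⟨w, hw, rfl⟩
          · exact Or.inl (inv_mem h)
          · refine Or.inr ⟨w⁻¹, inv_mem hw, ?_⟩
            rw [_root_.mul_inv_rev, inv_eq_of_mul_eq_one_left (S.flipPair_sq r b), ← hx,
              (hcU _ (inv_mem hw)).eq]
      rcases hsplit with hzU | ⟨w, hw, rfl⟩
      · obtain ⟨i1, i2, i3⟩ := ih hr.2 z hzU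
        exact ⟨i1, fun u hu => i2 u fun h => hu (Finset.mem_insert_of_mem h), i3⟩
      · obtain ⟨i1, i2, -⟩ := ih hr.2 w hw
        have hbx : ∀ u, baseIdx (S.act x u) = baseIdx u := fun u => by
          rw [hx, S.act_flipPair hr.1]; split <;> simp [baseIdx_swap]
        refine ⟨fun u => by rw [map_mul, Perm.mul_apply, hbx, i1], fun u hu hur => ?_, fun h => ?_⟩
        · rw [Finset.mem_insert, not_or] at hu
          rw [map_mul, Perm.mul_apply, i2 u hu.2 hur, hx, S.act_flipPair hr.1]
          simp [hu.1, hur]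
        · exfalso
          have h' := congrArg (fun g : Perm (α ⊕ α) => g (Sum.inl b)) h
          simp only [map_mul, Perm.mul_apply, Perm.one_apply] at h'
          rw [i2 (Sum.inl b) hb (Ne.symm hr.1), hx, S.act_flipPair hr.1] at h'
          simp [baseIdx] at h'
  have hgen : S.ι.range ⊔ E = ⊤ := by
    rw [eq_top_iff, ← S.gen]
    refine sup_le le_sup_left ?_
    rw [Subgroup.zpowers_le]
    have : S.y = (S.ι (swap q l))⁻¹ * S.flipPair q l := by
      rw [S.flipPair_eq (σ := 1) (a := q) (b := l) ⟨rfl, rfl⟩, map_one, one_mul, inv_one, mul_one, flip0, inv_mul_cancel_left]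
    rw [this]
    exact mul_mem (inv_mem (Subgroup.mem_sup_left ⟨_, rfl⟩)) (Subgroup.mem_sup_right (hpair q l hql))
  rw [injective_iff_map_eq_one]
  intro z hz
  have hz' : z ∈ ((S.ι.range ⊔ E : Subgroup Q) : Set Q) := by rw [hgen]; trivial
  rw [Subgroup.coe_mul_of_left_le_normalizer_right _ _ hnorm] at hz'
  obtain ⟨_, ⟨σ, rfl⟩, e, he, rfl⟩ := hz'
  have he' : e ∈ Subgroup.closure ((fun b => S.flipPair r b) '' ((Finset.univ.erase r : Finset α) : Set α)) := by
    refine Subgroup.closure_mono ?_ he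
    rintro _ ⟨b, hb, rfl⟩
    exact ⟨b, by simp [hb], rfl⟩
  obtain ⟨k1, -, k3⟩ := key _ (Finset.notMem_erase r _) e he'
  have hσ : σ = 1 := by
    refine Equiv.ext fun c => ?_
    have h := congrArg (fun g : Perm (α ⊕ α) => baseIdx (g (Sum.inl c))) hz
    simp only [map_mul, Perm.mul_apply, S.act_ι, baseIdx_map, k1, Perm.one_apply] at h
    exact h
  subst hσ
  have hz'' : S.act e = 1 := by simpa using hz
  show S.ι 1 * e = 1
  rw [map_one, one_mul, k3 hz'']

end WeylD

end CfsgLib.OmegaPlusPres
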