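import Cfsg.Agent.Lib.OmegaPlusPres.Monomial
import Cfsg.Agent.Lib.OmegaPlusPres.Weyl

/-!
A Curtis–Tits system of type `D` in which the product of the two tail tori at `-1` is trivial maps
injectively to matrices.
-/

set_option autoImplicit false
set_option linter.unusedSectionVars false

namespace CfsgLib.OmegaPlusPres

open Matrix CfsgLib.ClassicalLinear CfsgLib.SectRank.CT
open CfsgLib.SL2Pres (dS wS)

universe u v

variable {F : Type u} [Field F] {m : ℕ} {Γ : Type v} [Group Γ]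
  {θ : SpecialLinearGroup (Fin (m + 3)) F →* Γ} {π : SpecialLinearGroup (Fin 3) F →* Γ}
  {Ψ : Γ →* Matrix (Fin (m + 3) ⊕ Fin (m + 3)) (Fin (m + 3) ⊕ Fin (m + 3)) F}

local notation "IX" => Fin (m + 3) ⊕ Fin (m + 3)

/-- Monomial shape in the matrices. -/
def Shape (Ψ : Γ →* Matrix (Fin (m + 3) ⊕ Fin (m + 3)) (Fin (m + 3) ⊕ Fin (m + 3)) F) (n : Γ)
    (σ : Equiv.Perm (Fin (m + 3) ⊕ Fin (m + 3))) : Prop := ∀ u w, u ≠ σ w → Ψ n u w = 0

theorem Shape.ne_zero {n : Γ} {σ : Equiv.Perm IX} (h : Shape Ψ n σ) (w : IX) : Ψ n (σ w) w ≠ 0 := by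
  intro e
  have hm := congrFun (congrFun (map_mul Ψ n⁻¹ n) w) w
  rw [inv_mul_cancel, map_one, Matrix.one_apply_eq, Matrix.mul_apply,
    Finset.sum_eq_zero (fun x _ => by
      by_cases hx : x = σ w
      · rw [hx, e, mul_zero]
      · rw [h x w hx, mul_zero])] at hm
  exact one_ne_zero hm

theorem Shape.unique {n : Γ} {σ τ : Equiv.Perm IX} (h1 : Shape Ψ n σ) (h2 : Shape Ψ n τ) : σ = τ := by
  refine Equiv.ext fun w => by_contra fun hne => h1.ne_zero w ?_
  exact h2 _ w hne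

theorem Shape.one : Shape Ψ (1 : Γ) 1 := fun u w h => by rw [map_one, Matrix.one_apply_ne]; exact h

theorem Shape.mul {a b : Γ} {σ τ : Equiv.Perm IX} (ha : Shape Ψ a σ) (hb : Shape Ψ b τ) :
    Shape Ψ (a * b) (σ * τ) := by
  intro u w h
  rw [map_mul, Matrix.mul_apply]
  refine Finset.sum_eq_zero fun z _ => ?_
  by_cases hz : z = τ w
  · rw [ha u z (fun e => h (by rw [e, hz]; rfl)), zero_mul]
  · rw [hb z w hz, mul_zero]

theorem Shape.inv {a : Γ} {σ : Equiv.Perm IX} (ha : Shape Ψ a σ) : Shape Ψ a⁻¹ σ⁻¹ := by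
  intro u w h
  have hm := congrFun (congrFun (map_mul Ψ a a⁻¹) (σ u)) w
  have hne : σ u ≠ w := fun e => h (by rw [← e]; simp)
  rw [mul_inv_cancel, map_one, Matrix.one_apply_ne hne, Matrix.mul_apply,
    Finset.sum_eq_single u (fun x _ hx => by rw [ha _ x (fun e => hx (σ.injective e).symm), zero_mul]) (by simp)]
    at hm
  exact (mul_eq_zero.1 hm.symm).resolve_left (ha.ne_zero u)

variable (H : DHyp θ π) (M : DMat θ π Ψ)

/-- The monomial group. -/
def Nm : Subgroup Γ := (MonG F m).map θ ⊔ (TT H ⊔ Subgroup.zpowers (nY π (1 : F)))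

theorem θ_mem_Nm {g : SpecialLinearGroup (Fin (m + 3)) F} (hg : g ∈ MonG F m) : θ g ∈ Nm H :=
  Subgroup.mem_sup_left (Subgroup.mem_map_of_mem θ hg)

theorem TT_le_Nm : TT H ≤ Nm H := le_sup_left.trans le_sup_right

theorem nY_mem_Nm : nY π (1 : F) ∈ Nm H :=
  Subgroup.mem_sup_right (Subgroup.mem_sup_right (Subgroup.mem_zpowers _))

omit H in
theorem mon12_eq {t : F} (ht : t ≠ 0) :
    mon 1 2 t = emb23 (dS (Units.mk0 t ht)) * mon 1 2 (1 : F) := by
  apply Subtype.ext
  show (mon 1 2 t).1 = (emb23 (dS (Units.mk0 t ht))).1 * (mon 1 2 (1 : F)).1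
  rw [mon_coe (by decide) ht, mon_coe (by decide) one_ne_zero, emb23_coe]
  ext x y; fin_cases x <;> fin_cases y <;> simp [dS_val, Matrix.mul_apply, Fin.sum_univ_three]

omit H in
theorem mon12_sq : mon 1 2 (1 : F) * mon 1 2 1 = emb23 (dS (-1)) := by
  apply Subtype.ext
  show (mon 1 2 (1 : F) * mon 1 2 1).1 = _
  rw [mon_mul (by decide) one_ne_zero one_ne_zero, emb23_coe]
  ext x y; fin_cases x <;> fin_cases y <;> simp [dS_val]

theorem nY_mem_Nm' {t : F} (ht : t ≠ 0) : nY π t ∈ Nm H := by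
  rw [nY, mon12_eq ht, map_mul]
  exact mul_mem (TT_le_Nm H (hY_mem_TT H _)) (nY_mem_Nm H)

theorem NN_le_Nm : NN θ π ≤ Nm H := by
  rw [NN, Subgroup.closure_le]
  rintro _ ⟨s, t, ht, rfl⟩
  rcases s with _ | k
  · exact nY_mem_Nm' H ht
  · exact θ_mem_Nm H (Subgroup.subset_closure (Or.inl ⟨k, t, ht, rfl⟩))

theorem Nm_le_normalizer : Nm H ≤ Subgroup.normalizer (TT H : Set Γ) := by
  have two : ∀ x : Γ, (∀ t ∈ TT H, x * t * x⁻¹ ∈ TT H) → x * x ∈ TT H →
      x ∈ Subgroup.normalizer (TT H : Set Γ) := by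
    intro x h hx
    rw [Subgroup.mem_normalizer_iff]
    refine fun t => ⟨h t, fun ht => ?_⟩
    have h1 := mul_mem (mul_mem (inv_mem hx) (h _ ht)) hx
    rwa [show (x * x)⁻¹ * (x * (x * t * x⁻¹) * x⁻¹) * (x * x) = t by group] at h1
  refine sup_le ?_ (sup_le Subgroup.le_normalizer ?_)
  · rw [Subgroup.map_le_iff_le_comap, MonG, Subgroup.closure_le]
    rintro g (⟨k, t, ht, rfl⟩ | hg)
    · refine two _ (conj_adj H k ht) ?_
      rw [← map_mul]
      refine θ_mem_TT H fun x => ?_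
      have h := (adj_mvP k ht).mul (adj_mvP k ht)
      rw [Equiv.swap_mul_self] at h
      exact h x
    · exact Subgroup.le_normalizer (θ_mem_TT H hg)
  · rw [Subgroup.zpowers_le]
    refine two _ (conj_nY H) ?_
    rw [nY, ← map_mul, mon12_sq]
    exact hY_mem_TT H _

include M

theorem shape_θ {g : SpecialLinearGroup (Fin (m + 3)) F} {σ : Equiv.Perm (Fin (m + 3))} (h : MvP g σ) :
    Shape Ψ (θ g) (Equiv.sumCongr σ σ) := by
  intro u w hne
  rw [M.onθ]
  exact levMat_mono _ h u w hne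

omit M in
theorem cSwap_apply_self' (u : IX) : cSwap (cSwap u) = u := Equiv.swap_apply_self _ _ u

theorem shape_π {A : SpecialLinearGroup (Fin 3) F} {σ : Equiv.Perm (Fin (m + 3))}
    (h : MvP (tailHom (m := m) A) σ) :
    Shape Ψ (π A) (cSwap.trans ((Equiv.sumCongr σ σ).trans cSwap)) := by
  intro u w hne
  rw [M.onπ, Matrix.submatrix_apply]
  refine levMat_mono _ h _ _ fun e => hne ?_
  show u = cSwap (Equiv.sumCongr σ σ (cSwap w))
  rw [← cSwap_apply_self' u]
  exact congrArg cSwap e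

theorem shape_hY (u : Fˣ) : Shape Ψ (hY π u) 1 := by
  have h := shape_π M (A := emb23 (dS u)) (b23_dS_mem (m := m) u)
  intro a b hab
  refine h a b fun e => hab ?_
  rw [e]
  show cSwap (Equiv.sumCongr (1 : Equiv.Perm (Fin (m + 3))) 1 (cSwap b)) = b
  rw [show Equiv.sumCongr (1 : Equiv.Perm (Fin (m + 3))) 1 (cSwap b) = cSwap b by
    rcases cSwap b with x | x <;> rfl, cSwap_apply_self']

theorem shape_nY : Shape Ψ (nY π (1 : F)) (sig none) := by
  obtain ⟨m1, m2, m3⟩ := mon_mv (F := F) (ixQL (m := m)) (one_ne_zero (α := F))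
  have h : MvP (tailHom (m := m) (mon 1 2 (1 : F))) (Equiv.swap ixQ ixL) := by
    have e : tailHom (m := m) (mon 1 2 (1 : F)) =
        tv ixQ ixL (1 : F) * tv ixL ixQ (-(1 : F)⁻¹) * tv ixQ ixL 1 := by
      simp only [mon, map_mul, (tailHom_el12 _).1, (tailHom_el12 _).2]
    intro x
    rw [e]
    rcases eq_or_ne x ixQ with rfl | h1
    · rw [Equiv.swap_apply_left]; exact m2
    rcases eq_or_ne x ixL with rfl | h2
    · rw [Equiv.swap_apply_right]; exact m1
    rw [Equiv.swap_apply_of_ne_of_ne h1 h2]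
    exact (m3 x h1 h2).mv
  exact shape_π M h

theorem exists_shape {n : Γ} (hn : n ∈ Nm H) : ∃ σ, Shape Ψ n σ := by
  have hT : ∀ x ∈ TT H, ∃ σ, Shape Ψ x σ := by
    rintro _ ⟨d, u, hd, rfl⟩
    exact ⟨_, (shape_θ M hd).mul (shape_hY M u)⟩
  rw [Nm, ← Subgroup.closure_eq ((MonG F m).map θ), ← Subgroup.closure_eq (TT H), Subgroup.zpowers_eq_closure,
    ← Subgroup.closure_union, ← Subgroup.closure_union] at hn
  induction hn using Subgroup.closure_induction with
  | mem x hx =>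
    rcases hx with ⟨g, hg, rfl⟩ | hx | hx
    · obtain ⟨σ, hσ⟩ := MonG_perm hg
      exact ⟨_, shape_θ M hσ⟩
    · exact hT x hx
    · rw [Set.mem_singleton_iff.1 hx]; exact ⟨_, shape_nY M⟩
  | one => exact ⟨_, Shape.one⟩
  | mul a b _ _ ha hb =>
    obtain ⟨σ, hσ⟩ := ha; obtain ⟨τ, hτ⟩ := hb
    exact ⟨_, hσ.mul hτ⟩
  | inv a _ ha =>
    obtain ⟨σ, hσ⟩ := ha
    exact ⟨_, hσ.inv⟩

/-- The action on signed coordinates. -/
noncomputable def shapeHom : Nm H →* Equiv.Perm IX where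
  toFun n := (exists_shape H M n.2).choose
  map_one' := (exists_shape H M (one_mem _)).choose_spec.unique Shape.one
  map_mul' a b := (exists_shape H M (mul_mem a.2 b.2)).choose_spec.unique
    ((exists_shape H M a.2).choose_spec.mul (exists_shape H M b.2).choose_spec)

theorem shapeHom_eq {n : Nm H} {σ : Equiv.Perm IX} (h : Shape Ψ n.1 σ) : shapeHom H M n = σ :=
  (exists_shape H M n.2).choose_spec.unique h

theorem shape_TT {x : Γ} (hx : x ∈ TT H) : Shape Ψ x 1 := by
  obtain ⟨d, u, hd, rfl⟩ := hx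
  have h := (shape_θ M (show MvP d 1 from hd)).mul (shape_hY M u)
  have e : Equiv.sumCongr (1 : Equiv.Perm (Fin (m + 3))) (1 : Equiv.Perm (Fin (m + 3))) * 1 =
      (1 : Equiv.Perm IX) := Equiv.ext fun u => by rcases u with x | x <;> rfl
  rwa [e] at h

omit M in
theorem TT_normal : ((TT H).subgroupOf (Nm H)).Normal :=
  (Subgroup.normal_subgroupOf_iff_le_normalizer (TT_le_Nm H)).2 (Nm_le_normalizer H)

omit M in
/-- The Weyl group. -/
abbrev WQ : Type v := Nm H ⧸ (TT H).subgroupOf (Nm H)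

omit M in
theorem mk_θ_eq {g g' : SpecialLinearGroup (Fin (m + 3)) F} (hg : g ∈ MonG F m) (hg' : g' ∈ MonG F m)
    {σ : Equiv.Perm (Fin (m + 3))} (h : MvP g σ) (h' : MvP g' σ) :
    (QuotientGroup.mk ⟨θ g, θ_mem_Nm H hg⟩ : WQ H) = QuotientGroup.mk ⟨θ g', θ_mem_Nm H hg'⟩ := by
  rw [QuotientGroup.eq, Subgroup.mem_subgroupOf]
  show (θ g)⁻¹ * θ g' ∈ TT H
  rw [← map_inv, ← map_mul]
  refine θ_mem_TT H fun x => ?_
  have := h.inv.mul h'
  rw [inv_mul_cancel] at this
  exact this x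

theorem exists_weylD : ∃ (_ : ((TT H).subgroupOf (Nm H)).Normal) (S : WeylD (Fin (m + 3)) (WQ H) ixR ixQ ixL),
    ∀ n : Nm H, S.act (QuotientGroup.mk n) = shapeHom H M n := by
  haveI := TT_normal H
  choose rep hrep using exists_mon (F := F) (m := m)
  let q : Nm H →* WQ H := QuotientGroup.mk' _
  let ι : Equiv.Perm (Fin (m + 3)) →* WQ H := MonoidHom.mk' (fun σ => q ⟨θ (rep σ), θ_mem_Nm H (hrep σ).1⟩)
    fun σ τ => by
      rw [← map_mul]
      refine (mk_θ_eq H (hrep (σ * τ)).1 (mul_mem (hrep σ).1 (hrep τ).1) (hrep (σ * τ)).2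
        ((hrep σ).2.mul (hrep τ).2)).trans (congrArg q (Subtype.ext ?_))
      exact map_mul θ _ _
  have hι : ∀ (g : SpecialLinearGroup (Fin (m + 3)) F) (σ : Equiv.Perm (Fin (m + 3))) (hg : g ∈ MonG F m),
      MvP g σ → ι σ = q ⟨θ g, θ_mem_Nm H hg⟩ := fun g σ hg h => mk_θ_eq H (hrep σ).1 hg (hrep σ).2 h
  let y : WQ H := q ⟨nY π (1 : F), nY_mem_Nm H⟩
  have hlift : (TT H).subgroupOf (Nm H) ≤ (shapeHom H M).ker := fun x hx =>
    shapeHom_eq H M (shape_TT H M hx)
  let act : WQ H →* Equiv.Perm IX := QuotientGroup.lift _ (shapeHom H M) hlift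
  have act_q : ∀ n : Nm H, act (q n) = shapeHom H M n := fun n => QuotientGroup.lift_mk' _ hlift n
  have act_ι : ∀ σ, act (ι σ) = Equiv.sumCongr σ σ := fun σ =>
    (act_q _).trans (shapeHom_eq H M (shape_θ M (hrep σ).2))
  have comm_of : ∀ a b : Nm H, Commute a.1 b.1 → Commute (q a) (q b) := fun a b h =>
    (show Commute a b from Subtype.ext h.eq).map q
  have hQL : MvP (b23 (m := m) (monS (1 : F))) (Equiv.swap ixQ ixL) ∧ b23 (m := m) (monS (1 : F)) ∈ MonG F m := by
    have e : b23 (m := m) (monS (1 : F)) = adj (F := F) ⟨m + 1, by omega⟩ 1 := by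
      show tailHom (emb23 (monS (1 : F))) = _
      simp only [monS, map_mul, emb23_upS, emb23_lowS, (tailHom_el12 _).1, (tailHom_el12 _).2]
      rfl
    have hs : (Equiv.swap ixQ ixL : Equiv.Perm (Fin (m + 3))) =
        Equiv.swap (kA ⟨m + 1, by omega⟩) (kB ⟨m + 1, by omega⟩) := rfl
    rw [e, hs]
    exact ⟨adj_mvP _ one_ne_zero, Subgroup.subset_closure (Or.inl ⟨_, 1, one_ne_zero, rfl⟩)⟩
  have hRQ : MvP (b12 (m := m) (monS (1 : F))) (Equiv.swap ixR ixQ) ∧ b12 (m := m) (monS (1 : F)) ∈ MonG F m := by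
    have e : b12 (m := m) (monS (1 : F)) = adj (F := F) ⟨m, by omega⟩ 1 := by
      show tailHom (emb12 (monS (1 : F))) = _
      simp only [monS, map_mul, emb12_upS, emb12_lowS, el_eq_tv, tailHom_tv (show (0 : Fin 3) ≠ 1 by decide),
        tailHom_tv (show (1 : Fin 3) ≠ 0 by decide)]
      rfl
    have hs : (Equiv.swap ixR ixQ : Equiv.Perm (Fin (m + 3))) =
        Equiv.swap (kA ⟨m, by omega⟩) (kB ⟨m, by omega⟩) := rfl
    rw [e, hs]
    exact ⟨adj_mvP _ one_ne_zero, Subgroup.subset_closure (Or.inl ⟨_, 1, one_ne_zero, rfl⟩)⟩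
  have hn : nY π (1 : F) = π (emb23 (monS 1)) := by
    rw [nY]; simp only [monS, mon, map_mul, emb23_upS, emb23_lowS]
  refine ⟨inferInstance, ⟨ι, y, act, ⟨ixRQ, ixRL, ixQL⟩, ?_, ?_, ?_, ?_, fun σ u => by rw [act_ι], ?_, ?_⟩,
    act_q⟩
  · show q _ * q _ = 1
    rw [← map_mul]
    refine (QuotientGroup.eq_one_iff _).2 ?_
    rw [Subgroup.mem_subgroupOf]
    show nY π (1 : F) * nY π 1 ∈ TT H
    rw [nY, ← map_mul, mon12_sq]
    exact hY_mem_TT H _
  · rw [hι _ _ hQL.2 hQL.1]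
    refine comm_of _ _ ?_
    show Commute (θ (b23 (monS 1))) (nY π 1)
    rw [hn]
    exact comm_b23 H _ _
  · intro σ h1 h2
    have hq : Mv (rep σ) ixQ ixQ := by have := (hrep σ).2 ixQ; rwa [h1] at this
    have hl : Mv (rep σ) ixL ixL := by have := (hrep σ).2 ixL; rwa [h2] at this
    obtain ⟨g0, w, v, k1, k2, e⟩ := exists_split hq hl
    have hd : b12 (dS w) * b23 (dS v) ∈ Dg F m := mul_mem (b12_dS_mem w) (b23_dS_mem v)
    rw [mul_assoc] at e
    have hg0 : g0 ∈ MonG F m := by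
      have := mul_mem (hrep σ).1 (inv_mem (Subgroup.subset_closure (Or.inr hd) :
        b12 (dS w) * b23 (dS v) ∈ MonG F m))
      rwa [e, mul_inv_cancel_right] at this
    have hg0P : MvP g0 σ := by
      have := (hrep σ).2.mul (MvP.inv (show MvP (b12 (dS w) * b23 (dS v)) 1 from hd))
      rw [inv_one, mul_one, e, mul_inv_cancel_right] at this
      exact this
    rw [hι g0 σ hg0 hg0P]
    refine comm_of _ _ ?_
    show Commute (θ g0) (nY π 1)
    rw [hn]
    exact comm_fix H k1 k2 _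
  · rw [hι _ _ hRQ.2 hRQ.1]
    show q _ * q _ * q _ = q _ * q _ * q _
    simp only [← map_mul]
    refine congrArg q (Subtype.ext ?_)
    show nY π (1 : F) * θ (tailHom (emb12 (monS 1))) * nY π 1 =
      θ (tailHom (emb12 (monS 1))) * nY π 1 * θ (tailHom (emb12 (monS 1)))
    rw [← H.compat, nY, ← map_mul, ← map_mul, ← map_mul, ← map_mul]
    congr 1
    have e12 : emb12 (monS (1 : F)) = mon 0 1 (1 : F) := by
      simp only [monS, mon, map_mul, emb12_upS, emb12_lowS]
    rw [e12]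
    apply Subtype.ext
    show (mon 1 2 (1 : F)).1 * (mon 0 1 (1 : F)).1 * (mon 1 2 (1 : F)).1 =
      (mon 0 1 (1 : F)).1 * (mon 1 2 (1 : F)).1 * (mon 0 1 (1 : F)).1
    rw [mon_coe (by decide) one_ne_zero, mon_coe (by decide) one_ne_zero]
    ext a b; fin_cases a <;> fin_cases b <;> simp [Matrix.mul_apply, Fin.sum_univ_three]
  · intro u
    rw [map_mul, Equiv.Perm.mul_apply, act_ι, show act y = sig none from
      (act_q _).trans (shapeHom_eq H M (shape_nY M)), sig_none_apply]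
    have hne := ixQL (m := m)
    rcases u with a | a <;> by_cases h1 : a = ixQ <;> by_cases h2 : a = ixL <;>
      simp_all [baseIdx, Equiv.swap_apply_of_ne_of_ne, hne.symm]
  · rw [eq_top_iff]
    intro z _
    obtain ⟨⟨n, hn'⟩, rfl⟩ := QuotientGroup.mk'_surjective _ z
    show q _ ∈ _
    have key : Nm H ≤ ((ι.range ⊔ Subgroup.zpowers y).comap q).map (Nm H).subtype := by
      refine sup_le ?_ (sup_le ?_ ?_)
      · rintro _ ⟨g, hg, rfl⟩
        obtain ⟨σ, hσ⟩ := MonG_perm hg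
        exact ⟨⟨θ g, θ_mem_Nm H hg⟩, Subgroup.mem_sup_left ⟨σ, hι g σ hg hσ⟩, rfl⟩
      · intro x hx
        refine ⟨⟨x, TT_le_Nm H hx⟩, ?_, rfl⟩
        show q ⟨x, TT_le_Nm H hx⟩ ∈ ι.range ⊔ Subgroup.zpowers y
        rw [show q ⟨x, TT_le_Nm H hx⟩ = 1 from (QuotientGroup.eq_one_iff _).2 hx]
        exact one_mem _
      · rw [Subgroup.zpowers_le]
        exact ⟨⟨_, nY_mem_Nm H⟩, Subgroup.mem_sup_right (Subgroup.mem_zpowers y), rfl⟩
    obtain ⟨⟨n', _⟩, h, rfl⟩ := key hn'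
    exact h

/-- Diagonal elements of the monomial group lie in the torus. -/
theorem mem_TT_of_eq_one {n : Γ} (hn : n ∈ Nm H) (h : Ψ n = 1) : n ∈ TT H := by
  obtain ⟨_, S, hS⟩ := exists_weylD H M
  have h1 : shapeHom H M ⟨n, hn⟩ = 1 := shapeHom_eq H M fun u w huw => by
    rw [h, Matrix.one_apply_ne]; exact huw
  have h2 : (QuotientGroup.mk (⟨n, hn⟩ : Nm H) : WQ H) = 1 :=
    S.act_injective (by rw [hS, h1, map_one])
  haveI := TT_normal H
  have h3 := (QuotientGroup.eq_one_iff (⟨n, hn⟩ : Nm H)).1 h2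
  exact h3

/-- The torus meets the kernel only in the element at `-1`. -/
theorem eq_one_of_TT {x : Γ} (hz : θ (b23 (dS (-1))) * hY π (-1) = 1) (hx : x ∈ TT H) (h : Ψ x = 1) : x = 1 := by
  obtain ⟨d, u, hd, rfl⟩ := hx
  rw [map_mul, M.onθ, hY_apply, M.onπ] at h
  have hπd : ∀ a : IX, ((levMat (tailHom (m := m) (emb23 (dS u)))).submatrix cSwap cSwap) a a =
      levMat (b23 (m := m) (dS u)) (cSwap a) (cSwap a) := fun a => rfl
  have hoff : ∀ a b : IX, a ≠ b → levMat d a b = 0 := fun a b hab =>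
    levMat_mono _ (show MvP d 1 from hd) a b fun e => hab (e.trans (by rcases b with x | x <;> rfl))
  have hdd : ∀ a : Fin (m + 3), d.1 a a * levMat (b23 (m := m) (dS u)) (cSwap (Sum.inl a)) (cSwap (Sum.inl a)) = 1 := by
    intro a
    have hh := congrFun (congrFun h (Sum.inl a)) (Sum.inl a)
    rw [Matrix.one_apply_eq, Matrix.mul_apply, Finset.sum_eq_single (Sum.inl a : IX)
      (fun x _ hx => by rw [hoff _ _ hx.symm, zero_mul]) (by simp), hπd] at hh
    exact hh
  have htl : ∀ i : Fin 3, (b23 (m := m) (dS u)).1 (Fin.natAdd m i) (Fin.natAdd m i) =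
      ![1, (u : F), ((u⁻¹ : Fˣ) : F)] i := fun i => by
    show (tailHom (emb23 (dS u))).1 _ _ = _
    rw [tailHom_coe, emb23_coe]; fin_cases i <;> simp [dS_val]
  have hinv : ((b23 (m := m) (dS u))⁻¹).1 ixL ixL = u := by
    rw [← map_inv, ← map_inv]
    show (tailHom (emb23 (dS u⁻¹))).1 (Fin.natAdd m 2) (Fin.natAdd m 2) = _
    rw [tailHom_coe, emb23_coe]; simp [dS_val]
  have hQ : d.1 ixQ ixQ * (u : F) = 1 := by
    have := hdd ixQ
    rw [show cSwap (Sum.inl ixQ : IX) = Sum.inl ixQ from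
      Equiv.swap_apply_of_ne_of_ne (by simp [ixQL]) (by simp)] at this
    rwa [show levMat (b23 (m := m) (dS u)) (Sum.inl ixQ) (Sum.inl ixQ) = (u : F) from (htl 1).trans (by simp)] at this
  have hL : d.1 ixL ixL * (u : F) = 1 := by
    have := hdd ixL
    rw [show cSwap (Sum.inl ixL : IX) = Sum.inr ixL from Equiv.swap_apply_left _ _] at this
    rwa [show levMat (b23 (m := m) (dS u)) (Sum.inr ixL) (Sum.inr ixL) = (u : F) by
      simp only [levMat, MonoidHom.coe_mk, OneHom.coe_mk, fromBlocks_apply₂₂, Matrix.transpose_apply, hinv]] at this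
  have hlow : ∀ a : Fin (m + 3), a ≠ ixQ → a ≠ ixL → d.1 a a = 1 := by
    intro a h1 h2
    have := hdd a
    rw [show cSwap (Sum.inl a : IX) = Sum.inl a from Equiv.swap_apply_of_ne_of_ne (by simp [h2]) (by simp)] at this
    have e : (b23 (m := m) (dS u)).1 a a = 1 := by
      induction a using Fin.addCases with
      | left a => exact ((tailHom_low (emb23 (dS u)) a).1 _).trans (if_pos rfl)
      | right a =>
        rw [htl]
        fin_cases a
        · simp
        · exact absurd rfl h1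
        · exact absurd rfl h2
    rwa [show levMat (b23 (m := m) (dS u)) (Sum.inl a) (Sum.inl a) = 1 from e, mul_one] at this
  have hdiag : d.1 = Matrix.diagonal fun a => d.1 a a := by
    ext a b
    rcases eq_or_ne a b with rfl | hab
    · simp
    · obtain ⟨c, -, g1, -⟩ := (show MvP d 1 from hd) b
      rw [g1 a, Matrix.diagonal_apply_ne _ hab]
      simp [hab]
  have hdet := d.2
  rw [hdiag, det_diagonal] at hdet
  rw [Finset.prod_eq_mul (ixQ : Fin (m + 3)) ixL ixQL (fun a _ ha => hlow a ha.1 ha.2) (by simp) (by simp)] at hdet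
  have hu2 : (u : F) * u = 1 := by
    calc (u : F) * u = (u : F) * u * (d.1 ixQ ixQ * d.1 ixL ixL) := by rw [hdet, mul_one]
      _ = (d.1 ixQ ixQ * u) * (d.1 ixL ixL * u) := by ring
      _ = 1 := by rw [hQ, hL, one_mul]
  have hde : d = b23 (m := m) (dS u⁻¹ * dS 1) → θ d * hY π u = 1 := by
    intro e
    rcases mul_self_eq_one_iff.1 hu2 with h' | h'
    · have : u = 1 := Units.ext h'
      subst this
      simp [e]
    · have : u = -1 := Units.ext h'
      subst this
      have hi : ((-1 : Fˣ))⁻¹ = -1 := by simp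
      rw [e, hi, map_one, mul_one]
      exact hz
  refine hde (Subtype.ext ?_)
  rw [map_one, mul_one, hdiag]
  ext a b
  rcases eq_or_ne a b with rfl | hab
  · rw [Matrix.diagonal_apply_eq]
    have hr : ∀ i : Fin 3, (b23 (m := m) (dS u⁻¹)).1 (Fin.natAdd m i) (Fin.natAdd m i) =
        ![1, ((u⁻¹ : Fˣ) : F), (u : F)] i := fun i => by
      show (tailHom (emb23 (dS u⁻¹))).1 _ _ = _
      rw [tailHom_coe, emb23_coe]; fin_cases i <;> simp [dS_val]
    induction a using Fin.addCases with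
    | left a =>
      rw [hlow _ (fun e => by simp [Fin.ext_iff, ix_val] at e; omega) (fun e => by simp [Fin.ext_iff, ix_val] at e; omega)]
      exact (((tailHom_low (emb23 (dS u⁻¹)) a).1 _).trans (if_pos rfl)).symm
    | right a =>
      rw [hr]
      fin_cases a
      · exact (hlow _ (fun e => by simp [Fin.ext_iff, ix_val] at e) (fun e => by simp [Fin.ext_iff, ix_val] at e))
      · show d.1 ixQ ixQ = _
        simpa using eq_inv_of_mul_eq_one_left hQ
      · have : d.1 ixL ixL = (u : F) := by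
          calc d.1 ixL ixL = d.1 ixL ixL * ((u : F) * u) := by rw [hu2, mul_one]
            _ = _ := by rw [← mul_assoc, hL, one_mul]
        exact this
  · rw [Matrix.diagonal_apply_ne _ hab]
    obtain ⟨c, -, g1, -⟩ := (show MvP (b23 (m := m) (dS u⁻¹)) 1 from b23_dS_mem u⁻¹) b
    rw [g1 a]; simp [hab]

include H in
/-- The map to matrices is injective on the generated group. -/
theorem eq_one_of_ker [Finite F] (hz : θ (b23 (dS (-1))) * hY π (-1) = 1) {g : Γ}
    (hg : g ∈ θ.range ⊔ π.range) (h1 : Ψ g = 1) : g = 1 := by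
  obtain ⟨u, hu, n, hn, u', hu', e⟩ := H.mem_cell (H.range_le hg)
  have hUT : UT (Ψ n) := by
    have e' : Ψ n = Ψ u⁻¹ * Ψ u'⁻¹ := by
      rw [show n = u⁻¹ * (u * n * u') * u'⁻¹ by group, ← e, map_mul, map_mul, h1, mul_one]
    rw [e']
    exact (M.U_UT H (inv_mem hu)).mul (M.U_UT H (inv_mem hu'))
  obtain ⟨σ, -, -, σm⟩ := M.NN_mono H hn
  have hσ : ∀ w, σ w = w := by
    intro w
    by_contra e'
    have h0 := σm w w (Ne.symm e')
    rw [hUT w w le_rfl, if_pos rfl] at h0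
    exact one_ne_zero h0
  have hn1 : Ψ n = 1 := by
    ext a b
    rcases eq_or_ne a b with rfl | hab
    · rw [hUT a a le_rfl, if_pos rfl, Matrix.one_apply_eq]
    · rw [σm a b (by rwa [hσ]), Matrix.one_apply_ne hab]
  have hn2 : n = 1 := eq_one_of_TT H M hz (mem_TT_of_eq_one H M (NN_le_Nm H hn) hn1) hn1
  rw [hn2, mul_one] at e
  rw [e]
  exact M.U_inj H (mul_mem hu hu') (by rw [← e]; exact h1)

end CfsgLib.OmegaPlusPres
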