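import Cfsg.Agent.Lib.OmegaPlusPres.Model
import Cfsg.Agent.Lib.OmegaPlusPres.Kernel
import Cfsg.Agent.Lib.Sp4Pres.Main
import Cfsg.Agent.Lib.ClassicalAut.OrthoBasic

/-!
Presentations of `Ω⁺_{2n}(F)` and `PΩ⁺_{2n}(F)` from one of `SL_n(F)`.
-/

set_option autoImplicit false
set_option linter.unusedSectionVars false

namespace CfsgLib.OmegaPlusPres

open Matrix CfsgLib.ClassicalLinear CfsgLib.SectRank.CT
open CfsgLib.SL2Pres (dS wS)
open CfsgLib.ShortPres (HasPres)

universe u

variable {F : Type u} [Field F] [Finite F] {m : ℕ}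

local notation "SN" => SpecialLinearGroup (Fin (m + 3)) F

section words

variable (W : SpecialLinearGroup (Fin (m + 3)) F → FreeGroup (Fin 6))

/-- The word of the new generator. -/
def GW : FreeGroup (Fin 6) := FreeGroup.of (Fin.last 5)

/-- The word of a flip. -/
noncomputable def fpW (a b : Fin (m + 3)) : FreeGroup (Fin 6) := W (carr a b) * GW * (W (carr a b))⁻¹

/-- The word of the root element. -/
noncomputable def pRW : FreeGroup (Fin 6) := fpW W 0 ixL * W (tv ixQ ixL 1) * (fpW W 0 ixL)⁻¹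

/-- The word of `r`. -/
def rrW : FreeGroup (Fin 6) := (W (b23 wS))⁻¹ * GW

/-- A commutation relator. -/
def cm (a b : FreeGroup (Fin 6)) : FreeGroup (Fin 6) := a * b * (b * a)⁻¹

/-- The added relators. -/
noncomputable def addRels (cs ls : List (SpecialLinearGroup (Fin (m + 3)) F)) : List (FreeGroup (Fin 6)) :=
  [GW * GW, fpW W 0 ixL * GW * (fpW W 0 ixQ)⁻¹, cm (W (tv ixQ ixL 1)) (pRW W)] ++
    cs.map (fun x => cm (W x) (rrW W)) ++ ls.map (fun x => cm (W x) (pRW W))

variable {W}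

theorem addRels_iff {Γ : Type*} [Group Γ] {f : Fin 6 → Γ} {θ : SN →* Γ}
    (hW : ∀ x, FreeGroup.lift f (W x) = θ x) (cs ls : List SN) :
    (∀ x ∈ addRels W cs ls, FreeGroup.lift f x = 1) ↔
      (f (Fin.last 5) * f (Fin.last 5) = 1 ∧
        fp θ (f (Fin.last 5)) 0 ixL * f (Fin.last 5) = fp θ (f (Fin.last 5)) 0 ixQ ∧
        Commute (θ (tv ixQ ixL 1)) (pRoot θ (f (Fin.last 5)) 1)) ∧
      (∀ x ∈ cs, Commute (θ x) (rr θ (f (Fin.last 5)))) ∧
      ∀ x ∈ ls, Commute (θ x) (pRoot θ (f (Fin.last 5)) 1) := by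
  have hG : FreeGroup.lift f GW = f (Fin.last 5) := FreeGroup.lift_apply_of
  have hfp : ∀ a b, FreeGroup.lift f (fpW W a b) = fp θ (f (Fin.last 5)) a b := fun a b => by
    simp [fpW, fp, hW, hG]
  have hp : FreeGroup.lift f (pRW W) = pRoot θ (f (Fin.last 5)) 1 := by
    simp [pRW, hfp, hW, pRoot_eq]
  have hr : FreeGroup.lift f (rrW W) = rr θ (f (Fin.last 5)) := by simp [rrW, rr, hW, hG]
  have hc : ∀ a b, FreeGroup.lift f (cm a b) = 1 ↔ Commute (FreeGroup.lift f a) (FreeGroup.lift f b) :=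
    fun a b => by rw [cm, map_mul, map_inv, map_mul, map_mul, mul_inv_eq_one]; rfl
  simp only [addRels, List.forall_mem_append, List.forall_mem_map, List.forall_mem_cons, List.not_mem_nil,
    false_implies, implies_true, and_true, hc, hW, hp, hr, map_mul, map_inv, hfp, hG, mul_inv_eq_one, and_assoc]

end words

/-- Six generators for `Ω⁺_{2n}(F)`. -/
theorem hasPres_six {r : ℕ} (hm : 1 ≤ m) (h : HasPres SN 5 r) :
    HasPres ↥(Cfsg.Omega F (Cfsg.quadFormPlus (m + 3) F)) 6 (r + 3 + if m = 1 then 6 else 3) := by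
  classical
  obtain ⟨R, hR, ⟨e⟩⟩ := h
  obtain ⟨cs, ls, hlen, hblk, hfx, hflip⟩ := exists_rels.{u, 0} (F := F) hm
  let η : FreeGroup (Fin 5) →* FreeGroup (Fin 6) := FreeGroup.map Fin.castSucc
  choose wd hwd using e.surjective.comp (PresentedGroup.mk_surjective _)
  let W : SN → FreeGroup (Fin 6) := fun x => η (wd x)
  set L := R.toList.map η ++ addRels W cs ls with hL
  refine ⟨L.toFinset, (List.toFinset_card_le _).trans ?_, ?_⟩
  · simp only [hL, addRels, List.length_append, List.length_map, List.length_cons, List.length_nil,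
      Finset.length_toList]
    omega
  rw [List.coe_toFinset]
  -- the presented group
  set P := PresentedGroup.of (rels := {x | x ∈ L}) with hP
  have hl : ∀ x ∈ L, FreeGroup.lift P x = 1 := fun x hx => SL2Pres.lift_of_eq_one hx
  have hcomp : ∀ {Γ : Type u} [Group Γ] (f : Fin 6 → Γ) (x : FreeGroup (Fin 5)),
      FreeGroup.lift f (η x) = FreeGroup.lift (f ∘ Fin.castSucc) x := fun f x =>
    DFunLike.congr_fun (FreeGroup.ext_hom ((FreeGroup.lift f).comp η) (FreeGroup.lift (f ∘ Fin.castSucc))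
      fun i => by simp [η]) x
  have hη : ∀ x : FreeGroup (Fin 5), FreeGroup.lift P (η x) = FreeGroup.lift (P ∘ Fin.castSucc) x := fun x =>
    DFunLike.congr_fun (FreeGroup.ext_hom ((FreeGroup.lift P).comp η) (FreeGroup.lift (P ∘ Fin.castSucc))
      fun i => by simp [η]) x
  have h5 : ∀ x ∈ (↑R : Set (FreeGroup (Fin 5))), FreeGroup.lift (P ∘ Fin.castSucc) x = 1 := fun x hx => by
    rw [← hη]
    exact hl _ (List.mem_append_left _ (List.mem_map.2 ⟨x, Finset.mem_toList.2 hx, rfl⟩))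
  let θ : SN →* PresentedGroup {x | x ∈ L} := (PresentedGroup.toGroup h5).comp e.symm.toMonoidHom
  have hθ : ∀ w, θ (e (PresentedGroup.mk _ w)) = FreeGroup.lift (P ∘ Fin.castSucc) w := fun w => by
    show PresentedGroup.toGroup h5 (e.symm (e (PresentedGroup.mk _ w))) = _
    rw [e.symm_apply_apply]; rfl
  have hW : ∀ x, FreeGroup.lift P (W x) = θ x := fun x => by
    rw [hη, ← hθ, show e (PresentedGroup.mk _ (wd x)) = x from hwd x]
  obtain ⟨⟨sq, tri, top⟩, hcs, hls⟩ := (addRels_iff hW cs ls).1 fun x hx => hl x (List.mem_append_right _ hx)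
  have S := hflip θ (P (Fin.last 5)) sq tri top hcs hls
  -- the model
  let G2 := Cfsg.isometryGroup F (Cfsg.quadFormPlus (m + 3) F)
  let fM : Fin 6 → G2 := Fin.snoc (fun i => levHom F m (e (PresentedGroup.of i))) gM
  have hg : fM (Fin.last 5) = gM := Fin.snoc_last _ _
  have hM : ∀ w, FreeGroup.lift fM (η w) = levHom F m (e (PresentedGroup.mk _ w)) := fun w => by
    rw [hcomp]
    exact DFunLike.congr_fun (FreeGroup.ext_hom (FreeGroup.lift (fM ∘ Fin.castSucc))
      (((levHom F m).comp e.toMonoidHom).comp (PresentedGroup.mk _)) fun i => by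
        simp [fM, Fin.snoc_castSucc, PresentedGroup.of]) w
  have hWM : ∀ x, FreeGroup.lift fM (W x) = levHom F m x := fun x =>
    (hM _).trans (congrArg (levHom F m) (hwd x))
  have hrel : ∀ x ∈ {x | x ∈ L}, FreeGroup.lift fM x = 1 := by
    intro x hx
    rw [Set.mem_ofPred_eq, hL, List.mem_append, List.mem_map] at hx
    rcases hx with ⟨x, hx, rfl⟩ | hx
    · rw [hM, PresentedGroup.one_of_mem (Finset.mem_toList.1 hx), map_one, map_one]
    · refine (addRels_iff hWM cs ls).2 ?_ x hx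
      rw [hg]
      exact ⟨⟨gM_sq, gM_tri hm, gM_top hm⟩, fun x hx => gM_blk (hblk x hx), fun x hx => gM_low hm (hfx x hx)⟩
  let ψ := PresentedGroup.toGroup (rels := {x | x ∈ L}) (f := fM) hrel
  have hψP : ∀ w, ψ (FreeGroup.lift P w) = FreeGroup.lift fM w := fun w =>
    DFunLike.congr_fun (FreeGroup.ext_hom (ψ.comp (FreeGroup.lift P)) (FreeGroup.lift fM) fun i => by
      simp [ψ, P]) w
  have hψθ : ∀ x, ψ (θ x) = levHom F m x := fun x => by rw [← hW, hψP, hWM]
  have hψg : ψ (P (Fin.last 5)) = gM := (PresentedGroup.toGroup.of (h := hrel)).trans hg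
  have hψπ : ∀ A, ψ (piHom θ (P (Fin.last 5)) A) = brHom F m A := fun A => by
    rw [← piHom_eq hm, piHom_apply, piHom_apply]
    simp only [fp, map_mul, map_inv, hψθ, hψg]
  have hgen : θ.range ⊔ (piHom θ (P (Fin.last 5))).range = ⊤ := by
    rw [eq_top_iff, ← PresentedGroup.closure_range_of, Subgroup.closure_le]
    rintro _ ⟨i, rfl⟩
    refine Fin.lastCases S.gg_mem (fun i => Subgroup.mem_sup_left ⟨e (PresentedGroup.of i), ?_⟩) i
    exact (hθ (FreeGroup.of i)).trans FreeGroup.lift_apply_of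
  have M : DMat θ (piHom θ (P (Fin.last 5))) ((Units.coeHom _).comp (G2.subtype.comp ψ)) := by
    refine ⟨fun A => ?_, fun A => ?_⟩
    · show (ψ (θ A)).1.1 = _
      rw [hψθ, levHom_coe]
    · show (ψ (piHom θ (P (Fin.last 5)) A)).1.1 = _
      rw [hψπ, brHom_coe]
  have hinj : Function.Injective ψ := (injective_iff_map_eq_one ψ).2 fun x hx =>
    eq_one_of_ker S.dHyp M S.hz (hgen ▸ Subgroup.mem_top x) (by
      show (ψ x).1.1 = 1
      rw [hx]; rfl)
  have hrange : ψ.range = Cfsg.Omega F (Cfsg.quadFormPlus (m + 3) F) := by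
    rw [MonoidHom.range_eq_map, ← hgen, Subgroup.map_sup, MonoidHom.map_range, MonoidHom.map_range,
      ← range_eq_omega (F := F) (m := m)]
    congr 2
    · exact MonoidHom.ext hψθ
    · exact MonoidHom.ext hψπ
  exact ⟨(MonoidHom.ofInjective hinj).trans (MulEquiv.subgroupCongr hrange)⟩

/-- Eight generators. -/
theorem hasPres_eight {r : ℕ} (hm : 1 ≤ m) (h : HasPres SN 5 r) :
    HasPres ↥(Cfsg.Omega F (Cfsg.quadFormPlus (m + 3) F)) 8 (r + 5 + if m = 1 then 6 else 3) :=
  (SLnPres.hasPres_succ (SLnPres.hasPres_succ (hasPres_six hm h))).mono (by omega)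

omit [Finite F] in
/-- The centre has at most two elements. -/
theorem center_le_zpowers [Finite F] (hm : 1 ≤ m) :
    ∃ g ∈ Subgroup.center (Cfsg.Omega F (Cfsg.quadFormPlus (m + 3) F)),
      ∀ c ∈ Subgroup.center (Cfsg.Omega F (Cfsg.quadFormPlus (m + 3) F)), c ∈ Subgroup.zpowers g := by
  classical
  let B : ClassicalAut.Ortho.Base (Fin (m + 3) ⊕ Fin (m + 3)) F (Cfsg.quadFormPlus (m + 3) F) :=
    ⟨ClassicalForms.qPlus (m + 3) F, ClassicalForms.qPlus_apply (m + 3), ClassicalForms.nondeg_qPlus (m + 3),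
      by simp; omega⟩
  have hpm : ∀ s ∈ Subgroup.center (Cfsg.Omega F (Cfsg.quadFormPlus (m + 3) F)),
      s.1.1.1 = 1 ∨ s.1.1.1 = -1 := by
    intro s hs
    obtain ⟨c, hc, hx⟩ := B.scalar_of_center hs
    have hs' : s.1.1.1 = c • (1 : Matrix (Fin (m + 3) ⊕ Fin (m + 3)) (Fin (m + 3) ⊕ Fin (m + 3)) F) := by
      refine Matrix.ext_of_mulVec_single fun i => ?_
      rw [Matrix.smul_mulVec, Matrix.one_mulVec]
      exact hx _
    rcases mul_self_eq_one_iff.1 hc with rfl | rfl
    · left; rw [hs', one_smul]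
    · right; rw [hs', neg_smul, one_smul]
  by_cases h : ∃ g ∈ Subgroup.center (Cfsg.Omega F (Cfsg.quadFormPlus (m + 3) F)), g ≠ 1
  · obtain ⟨g, hg, hg1⟩ := h
    refine ⟨g, hg, fun c hc => ?_⟩
    by_cases hc1 : c = 1
    · rw [hc1]; exact one_mem _
    have key : ∀ s ∈ Subgroup.center (Cfsg.Omega F (Cfsg.quadFormPlus (m + 3) F)), s ≠ 1 → s.1.1.1 = -1 :=
      fun s hs hs1 => (hpm s hs).resolve_left fun e => hs1 (Subtype.ext (Subtype.ext (Units.ext e)))
    rw [show c = g from Subtype.ext (Subtype.ext (Units.ext ((key c hc hc1).trans (key g hg hg1).symm)))]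
    exact Subgroup.mem_zpowers g
  · simp only [not_exists, not_and, not_not] at h
    exact ⟨1, one_mem _, fun c hc => by rw [h c hc]; exact one_mem _⟩

/-- One more relator for `PΩ⁺`. -/
theorem hasPres_pomega {a r : ℕ} (hm : 1 ≤ m)
    (h : HasPres ↥(Cfsg.Omega F (Cfsg.quadFormPlus (m + 3) F)) a r) :
    HasPres (Cfsg.POmega F (Cfsg.quadFormPlus (m + 3) F)) a (r + 1) := by
  obtain ⟨R, hR, ⟨e⟩⟩ := h
  obtain ⟨g, hg, hg'⟩ := center_le_zpowers (F := F) hm
  obtain ⟨w, hw⟩ := (e.surjective.comp (PresentedGroup.mk_surjective _)) g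
  have hw' : e (PresentedGroup.mk _ w) = g := hw
  obtain ⟨R', hR', e'⟩ := Sp4Pres.exists_quotient_presentation R e w
    (fun c hc => by rw [hw']; exact hg' c hc) (by rw [hw']; exact hg)
  exact ⟨R', hR'.trans (by omega), e'⟩

end CfsgLib.OmegaPlusPres
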