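import Cfsg.Agent.Lib.OmegaPlusPres.Gen
import Cfsg.Agent.Lib.SectRank.CTDOmega

/-!
The flip of `Ω⁺_{2n}(F)` exchanging `e_Q, f_Q` and `e_L, f_L`.
-/

set_option autoImplicit false
set_option linter.unusedSectionVars false

namespace CfsgLib.OmegaPlusPres

open Matrix CfsgLib.ClassicalLinear CfsgLib.SectRank.CT
open CfsgLib.SL2Pres (dS wS)

universe u

variable {F : Type u} [Field F] {m : ℕ}

local notation "IX" => Fin (m + 3) ⊕ Fin (m + 3)
local notation "SN" => SpecialLinearGroup (Fin (m + 3)) F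
local notation "G2" => Cfsg.isometryGroup F (Cfsg.quadFormPlus (m + 3) F)

/-- The difference from `1` of the exchange of `e_x` and `f_x`. -/
def DD (x : Fin (m + 3)) : Matrix (Fin (m + 3) ⊕ Fin (m + 3)) (Fin (m + 3) ⊕ Fin (m + 3)) F :=
  fromBlocks (-Matrix.single x x 1) (Matrix.single x x 1) (Matrix.single x x 1) (-Matrix.single x x 1)

theorem DD_mul {x y : Fin (m + 3)} (h : x ≠ y) : DD (F := F) x * DD y = 0 := by
  simp [DD, fromBlocks_multiply, h]

theorem DD_sq (x : Fin (m + 3)) : DD (F := F) x * DD x + (DD x + DD x) = 0 := by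
  rw [DD, fromBlocks_multiply, fromBlocks_add, fromBlocks_add, ← fromBlocks_zero]
  congr 1 <;> simp <;> abel

theorem one_DD_sq (x : Fin (m + 3)) : (1 + DD (F := F) x) * (1 + DD x) = 1 := by
  rw [show (1 + DD (F := F) x) * (1 + DD x) = 1 + (DD x * DD x + (DD x + DD x)) by noncomm_ring, DD_sq, add_zero]

theorem one_DD_comm {x y : Fin (m + 3)} (h : x ≠ y) :
    (1 + DD (F := F) x) * (1 + DD y) = (1 + DD y) * (1 + DD x) := by
  rw [mul_add, mul_add, add_mul, add_mul, add_mul, add_mul, DD_mul h, DD_mul h.symm]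
  simp only [mul_one, one_mul, add_zero]; abel

theorem mul_single_mul {n : Type*} [Fintype n] [DecidableEq n] (A B : Matrix n n F) {x a : n}
    (hA : ∀ i, A i x = if i = a then 1 else 0) (hB : ∀ j, B x j = if j = a then 1 else 0) :
    A * Matrix.single x x 1 * B = Matrix.single a a 1 := by
  ext i j
  rw [Matrix.mul_apply, Finset.sum_eq_single x (fun y _ hy => by simp [hy, Ne.symm hy]) (by simp),
    Matrix.mul_apply, Finset.sum_eq_single x (fun y _ hy => by simp [hy, Ne.symm hy]) (by simp)]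
  rw [hA, hB]
  by_cases h1 : i = a <;> by_cases h2 : j = a <;> simp [h1, h2, Matrix.single, Ne.symm]

theorem conj_DD {g : SN} {x a : Fin (m + 3)} (h : Moves g x a) :
    levMat g * DD x * levMat g⁻¹ = DD (F := F) a := by
  have hi := h.inv
  have hgi : (g⁻¹)⁻¹ = g := inv_inv g
  show fromBlocks g.1 0 0 (g⁻¹).1ᵀ * fromBlocks _ _ _ _ * fromBlocks (g⁻¹).1 0 0 ((g⁻¹)⁻¹).1ᵀ = _
  rw [hgi, DD, fromBlocks_multiply, fromBlocks_multiply]
  simp only [Matrix.mul_neg, Matrix.neg_mul, mul_zero, zero_mul, add_zero, zero_add]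
  rw [mul_single_mul _ _ h.1 hi.2, mul_single_mul g.1 g.1ᵀ h.1 (fun j => h.1 j),
    mul_single_mul (g⁻¹).1ᵀ (g⁻¹).1 (fun i => hi.2 i) hi.2, mul_single_mul (g⁻¹).1ᵀ g.1ᵀ (fun i => hi.2 i) (fun j => h.1 j)]

/-- The model's flip at a pair. -/
def TM (a b : Fin (m + 3)) : Matrix (Fin (m + 3) ⊕ Fin (m + 3)) (Fin (m + 3) ⊕ Fin (m + 3)) F :=
  (1 + DD a) * (1 + DD b)

theorem TM_sq {a b : Fin (m + 3)} (h : a ≠ b) : TM (F := F) a b * TM a b = 1 := by
  rw [TM, show ∀ p q : Matrix IX IX F, p * q * (p * q) = p * (q * p) * q from fun p q => by noncomm_ring,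
    ← one_DD_comm h, ← mul_assoc, one_DD_sq, one_mul, one_DD_sq]

theorem one_DD_eq : 1 + DD (F := F) (ixL : Fin (m + 3)) = (1 : Matrix IX IX F).submatrix cSwap id := by
  rw [DD, ← fromBlocks_one, fromBlocks_add]
  ext (i | i) (j | j) <;> by_cases h1 : i = ixL <;>
    simp [cSwap, Equiv.swap_apply_def, h1, Matrix.single, Matrix.one_apply, Ne.symm] <;>
    first
    | done
    | (split <;> simp_all)

theorem b23_coe (A : SpecialLinearGroup (Fin 2) F) : (b23 (m := m) A).1 =
    (1 - Matrix.single ixQ ixQ 1 - Matrix.single ixL ixL 1) + (Matrix.single ixQ ixQ (A.1 0 0) +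
      Matrix.single ixQ ixL (A.1 0 1) + Matrix.single ixL ixQ (A.1 1 0) + Matrix.single ixL ixL (A.1 1 1)) := by
  show Matrix.reindex finSumFinEquiv finSumFinEquiv (Matrix.fromBlocks 1 0 0 (emb23 A).1) = _
  ext a b
  rw [emb23_coe]
  have hne : ∀ (x : Fin m) (k : ℕ), m + k ≠ x.val ∧ x.val ≠ m + k := fun x k => by constructor <;> omega
  induction a using Fin.addCases with
  | left a =>
    induction b using Fin.addCases with
    | left b => simp [ix_val, hne, Matrix.single, Matrix.one_apply, Fin.ext_iff]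
    | right b => simp [ix_val, hne, Matrix.single, Matrix.one_apply, Fin.ext_iff]
  | right a =>
    induction b using Fin.addCases with
    | left b => simp [ix_val, hne, Matrix.single, Matrix.one_apply, Fin.ext_iff]
    | right b => fin_cases a <;> fin_cases b <;> simp [ix_val, Matrix.single, Matrix.one_apply, Fin.ext_iff]

theorem wS_inv : ((wS : SpecialLinearGroup (Fin 2) F)⁻¹).1 = !![0, -1; 1, 0] := by
  show Matrix.adjugate (wS : SpecialLinearGroup (Fin 2) F).1 = _
  rw [wS_val, Matrix.adjugate_fin_two]; simp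

theorem perm_mul {n : Type*} [Fintype n] [DecidableEq n] (c : Equiv.Perm n) (M : Matrix n n F) :
    (1 : Matrix n n F).submatrix c id * M = M.submatrix c id := by
  ext i j
  simp [Matrix.mul_apply, Matrix.one_apply]

theorem mul_perm {n : Type*} [Fintype n] [DecidableEq n] (c : Equiv.Perm n) (M : Matrix n n F) :
    M * (1 : Matrix n n F).submatrix c id = M.submatrix id c.symm := by
  ext i j
  rw [Matrix.mul_apply, Finset.sum_eq_single (c.symm j)
    (fun b _ hb => by simp [Matrix.one_apply, show c b ≠ j from fun e => hb (by simp [← e])]) (by simp)]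
  simp [Matrix.one_apply]

/-- The flip. -/
def gM : Cfsg.isometryGroup F (Cfsg.quadFormPlus (m + 3) F) :=
  brHom F m (mon 1 2 1) * (levHom F m (b23 wS))⁻¹

theorem tail_mon : tailHom (m := m) (mon 1 2 (1 : F)) = b23 wS := by
  have h : (monS (1 : F)) = wS := by
    apply Subtype.ext
    rw [monS_coe one_ne_zero, wS_val]; simp
  show _ = tailHom (emb23 wS)
  rw [← h]
  simp only [monS, mon, map_mul, emb23_upS, emb23_lowS]

theorem gM_coe : (gM (F := F) (m := m)).1.1 = TM ixQ ixL := by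
  have hw := wS_inv (F := F)
  set S : Matrix (Fin (m + 3)) (Fin (m + 3)) F := Matrix.single ixQ ixL 1 - Matrix.single ixL ixQ 1 with hS
  set Z : Matrix (Fin (m + 3)) (Fin (m + 3)) F := 1 - Matrix.single ixQ ixQ 1 - Matrix.single ixL ixL 1 with hZ
  have e1 : (b23 (F := F) (m := m) wS).1 = Z + S := by
    rw [b23_coe, wS_val]; simp [hS, hZ, sub_eq_add_neg, ← Matrix.single_neg]
  have e2 : (b23 (F := F) (m := m) wS)⁻¹.1ᵀ = Z + S := by
    rw [← map_inv, b23_coe, hw]
    simp [hS, hZ, sub_eq_add_neg, ← Matrix.single_neg, Matrix.transpose_add]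
    abel
  have key : (levMat (b23 (F := F) (m := m) wS)).submatrix cSwap cSwap = TM ixQ ixL * levMat (b23 wS) := by
    show (fromBlocks (b23 wS).1 0 0 ((b23 wS)⁻¹.1ᵀ)).submatrix cSwap cSwap = _ * fromBlocks (b23 wS).1 0 0 ((b23 wS)⁻¹.1ᵀ)
    have hT : TM (F := F) ixQ ixL = 1 + (DD ixQ + DD (ixL : Fin (m + 3))) := by
      rw [TM, mul_add, add_mul, add_mul, DD_mul ixQL]; simp only [one_mul, mul_one, add_zero]; abel
    have r1 : Matrix.single ixQ ixQ (1 : F) * (Z + S) = Matrix.single (ixQ : Fin (m + 3)) ixL 1 := by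
      simp [hS, hZ, mul_add, mul_sub, ixQL (m := m)]
    have r2 : Matrix.single ixL ixL (1 : F) * (Z + S) = -Matrix.single (ixL : Fin (m + 3)) ixQ 1 := by
      simp [hS, hZ, mul_add, mul_sub, (ixQL (m := m)).symm]
    rw [e1, e2, hT, DD, DD, fromBlocks_add, ← fromBlocks_one, fromBlocks_add, fromBlocks_multiply]
    simp only [mul_zero, add_zero, zero_add, add_mul, neg_mul, one_mul, r1, r2]
    have hne := ixQL (m := m)
    ext (i | i) (j | j) <;> by_cases h1 : i = ixL <;> by_cases h2 : j = ixL <;>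
      simp [hS, hZ, cSwap, Equiv.swap_apply_def, h1, h2, Matrix.single, Matrix.one_apply, hne, hne.symm, eq_comm] <;>
      first
      | done
      | (split <;> simp_all)
  show (levMat (tailHom (m := m) (mon 1 2 (1 : F)))).submatrix cSwap cSwap * ((levHom F m (b23 wS))⁻¹).1.1 = _
  rw [tail_mon, ← map_inv, levHom_coe, key, mul_assoc, ← map_mul, mul_inv_cancel, map_one, mul_one]

theorem gM_sq : gM (F := F) (m := m) * gM = 1 := isom_ext (by
  show (gM (F := F) (m := m)).1.1 * (gM (F := F) (m := m)).1.1 = 1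
  rw [gM_coe, TM_sq ixQL])

theorem conj_TM {g : SN} {x y a b : Fin (m + 3)} (hx : Moves g x a) (hy : Moves g y b) :
    levMat g * TM x y * levMat g⁻¹ = TM (F := F) a b := by
  have hi : levMat g⁻¹ * levMat g = (1 : Matrix IX IX F) := by rw [← map_mul, inv_mul_cancel, map_one]
  have hj : levMat g * levMat g⁻¹ = (1 : Matrix IX IX F) := by rw [← map_mul, mul_inv_cancel, map_one]
  have e : ∀ {x a : Fin (m + 3)}, Moves g x a → levMat g * (1 + DD x) * levMat g⁻¹ = 1 + DD (F := F) a :=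
    fun h => by rw [mul_add, add_mul, mul_one, hj, conj_DD h]
  rw [TM, TM, ← e hx, ← e hy]
  simp only [mul_assoc]
  rw [← mul_assoc (levMat g⁻¹) (levMat g), hi, one_mul]

theorem carr_moves {a b : Fin (m + 3)} (hab : a ≠ b) :
    Moves (carr (F := F) a b) ixQ a ∧ Moves (carr (F := F) a b) ixL b := by
  have h : ∃ g : SN, Moves g ixQ a ∧ Moves g ixL b := exists_moves (F := F) ixQL ixRQ ixRL hab
  rw [carr, dif_pos h]
  exact h.choose_spec

theorem fp_coe {a b : Fin (m + 3)} (hab : a ≠ b) :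
    (fp (levHom F m) (gM (F := F) (m := m)) a b).1.1 = TM a b := by
  obtain ⟨h1, h2⟩ := carr_moves (F := F) hab
  show levMat (carr a b) * (gM (F := F) (m := m)).1.1 * ((levHom F m (carr a b))⁻¹).1.1 = _
  rw [← map_inv, levHom_coe, gM_coe]
  exact conj_TM h1 h2

theorem gM_tri (hm : 1 ≤ m) :
    fp (levHom F m) (gM (F := F) (m := m)) 0 ixL * gM = fp (levHom F m) gM 0 ixQ := isom_ext (by
  obtain ⟨-, h0Q, h0L⟩ := zero_ne_tail hm
  show (fp (levHom F m) (gM (F := F) (m := m)) 0 ixL).1.1 * (gM (F := F) (m := m)).1.1 = _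
  rw [fp_coe h0L, fp_coe h0Q, gM_coe, TM, TM, TM, one_DD_comm (F := F) ixQL, mul_assoc,
    ← mul_assoc (1 + DD (F := F) ixL), one_DD_sq, one_mul])

theorem piHom_eq (hm : 1 ≤ m) : piHom (levHom F m) (gM (F := F) (m := m)) = brHom F m := by
  obtain ⟨-, h0Q, h0L⟩ := zero_ne_tail hm
  refine MonoidHom.ext fun A => isom_ext ?_
  rw [piHom_apply, brHom_coe]
  have hinv : (fp (levHom F m) (gM (F := F) (m := m)) 0 ixL)⁻¹ = fp (levHom F m) gM 0 ixL :=
    inv_eq_of_mul_eq_one_left (isom_ext (by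
      show (fp (levHom F m) (gM (F := F) (m := m)) 0 ixL).1.1 * (fp (levHom F m) gM 0 ixL).1.1 = 1
      rw [fp_coe h0L, TM_sq h0L]))
  rw [hinv]
  show (fp (levHom F m) (gM (F := F) (m := m)) 0 ixL).1.1 * levMat (tailHom A) *
    (fp (levHom F m) (gM (F := F) (m := m)) 0 ixL).1.1 = _
  rw [fp_coe h0L, TM]
  set M := levMat (tailHom (m := m) A) with hM
  have h0 : Moves (tailHom (m := m) A) 0 0 := eq_tail _ ⟨A, rfl⟩ 0 hm
  have hi : levMat (tailHom (m := m) A)⁻¹ * M = 1 := by rw [hM, ← map_mul, inv_mul_cancel, map_one]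
  have hc : M * (1 + DD 0) = (1 + DD 0) * M := by
    have e := conj_DD h0
    rw [mul_add, add_mul, mul_one, one_mul]
    conv_rhs => rw [← e, mul_assoc, hi, mul_one]
  calc (1 + DD 0) * (1 + DD ixL) * M * ((1 + DD 0) * (1 + DD ixL))
      = (1 + DD ixL) * ((1 + DD 0) * (M * (1 + DD 0))) * (1 + DD ixL) := by
        rw [one_DD_comm h0L]; simp only [mul_assoc]
        rw [← one_DD_comm h0L]
    _ = (1 + DD ixL) * M * (1 + DD ixL) := by
        rw [hc, ← mul_assoc (1 + DD 0), one_DD_sq, one_mul]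
    _ = _ := by
        rw [one_DD_eq, perm_mul, mul_perm, Matrix.submatrix_submatrix]
        rfl

theorem gM_mem : gM (F := F) (m := m) ∈ (levHom F m).range ⊔ (brHom F m).range :=
  mul_mem (Subgroup.mem_sup_right ⟨_, rfl⟩) (inv_mem (Subgroup.mem_sup_left ⟨_, rfl⟩))

theorem gM_blk {x : SN} (hx : Blk x) : Commute (levHom F m x) (rr (levHom F m) (gM (F := F) (m := m))) := by
  obtain ⟨g, A, hg, rfl⟩ := hx
  rw [map_mul, rr, gM]
  set w := levHom F m (b23 (wS : SpecialLinearGroup (Fin 2) F))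
  set B := brHom F m (mon 1 2 (1 : F)) with hB
  have hmon : mon 1 2 (1 : F) = emb23 wS := by
    have h : (monS (1 : F)) = wS := by
      apply Subtype.ext
      rw [monS_coe one_ne_zero, wS_val]; simp
    rw [← h]; simp only [monS, mon, map_mul, emb23_upS, emb23_lowS]
  have hgB : Commute (levHom F m g) B := by rw [hB, hmon]; exact comm_fix dHyp_isom hg.1 hg.2 wS
  have hgw : Commute (levHom F m g) w := (fix_comm_b23 hg wS).map _
  have hAB : Commute (levHom F m (b23 A)) B := by rw [hB, hmon]; exact comm_b23 dHyp_isom A wS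
  have hwB : Commute w B := by rw [hB, hmon]; exact comm_b23 dHyp_isom wS wS
  have hAw : Commute (levHom F m (b23 A)) (w⁻¹ * w⁻¹) := by
    rw [← map_inv, ← map_mul, ← map_inv, ← map_mul]
    refine Commute.map (Commute.map ?_ _) _
    show A * (wS⁻¹ * wS⁻¹) = wS⁻¹ * wS⁻¹ * A
    apply Subtype.ext
    show A.1 * ((wS⁻¹).1 * (wS⁻¹).1) = (wS⁻¹).1 * (wS⁻¹).1 * A.1
    rw [wS_inv]
    ext i j; fin_cases i <;> fin_cases j <;> simp [Matrix.mul_apply, Fin.sum_univ_two]
  have e : w⁻¹ * (B * w⁻¹) = B * (w⁻¹ * w⁻¹) := by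
    rw [← mul_assoc, (hwB.inv_left).eq, mul_assoc]
  rw [e]
  exact (hgB.mul_right (hgw.inv_right.mul_right hgw.inv_right)).mul_left (hAB.mul_right hAw)

theorem gM_low (hm : 1 ≤ m) {x : SN} (hx : Fx x) :
    Commute (levHom F m x) (pRoot (levHom F m) (gM (F := F) (m := m)) 1) := by
  rw [pRoot, piHom_eq hm]
  exact (dHyp_isom.fix_comm hx.1 hx.2 1).1

theorem gM_top (hm : 1 ≤ m) :
    Commute (levHom F m (tv ixQ ixL 1)) (pRoot (levHom F m) (gM (F := F) (m := m)) 1) := by
  rw [pRoot, piHom_eq hm, ← b23_upS]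
  exact (dHyp_isom.commTop (upS 1) 1).1

end CfsgLib.OmegaPlusPres
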