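import Cfsg.Agent.Lib.SectRank.CTDMatrix
import Cfsg.Agent.Lib.SL2Pres.Core

/-!
The diagonal and monomial elements of a Curtis–Tits system of type `D`, and the subgroup of the torus.
-/

set_option autoImplicit false
set_option linter.unusedSectionVars false

namespace CfsgLib.OmegaPlusPres

open Matrix CfsgLib.ClassicalLinear CfsgLib.SectRank.CT
open CfsgLib.SL2Pres (dS wS)

universe u v

variable {F : Type u} [Field F] {m : ℕ} {Γ : Type v} [Group Γ]

local notation "SN" => SpecialLinearGroup (Fin (m + 3)) F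
local notation "IX" => Fin (m + 3) ⊕ Fin (m + 3)

/-- Monomial with the given permutation. -/
def MvP (g : SN) (σ : Equiv.Perm (Fin (m + 3))) : Prop := ∀ x, Mv g x (σ x)

theorem MvP.mul {g h : SN} {σ τ : Equiv.Perm (Fin (m + 3))} (hg : MvP g σ) (hh : MvP h τ) :
    MvP (g * h) (σ * τ) := fun x => (hg (τ x)).mul (hh x)

theorem MvP.inv {g : SN} {σ : Equiv.Perm (Fin (m + 3))} (hg : MvP g σ) : MvP g⁻¹ σ⁻¹ := fun x => by
  have h := (hg (σ⁻¹ x)).inv
  rwa [Equiv.Perm.inv_def, Equiv.apply_symm_apply] at h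

variable (F m) in
/-- The diagonal elements. -/
def Dg : Subgroup SN where
  carrier := {g | MvP g 1}
  one_mem' := fun x => mv_one x
  mul_mem' := fun ha hb => by simpa using MvP.mul ha hb
  inv_mem' := fun ha => by simpa using MvP.inv ha

/-- The adjacent monomial. -/
def adj (k : Fin (m + 2)) (t : F) : SN :=
  tv (kA k) (kB k) t * tv (kB k) (kA k) (-t⁻¹) * tv (kA k) (kB k) t

theorem adj_mvP (k : Fin (m + 2)) {t : F} (ht : t ≠ 0) : MvP (adj k t) (Equiv.swap (kA k) (kB k)) := by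
  intro x
  obtain ⟨m1, m2, m3⟩ := mon_mv (F := F) (kAB k) ht
  rcases eq_or_ne x (kA k) with rfl | h1
  · rw [Equiv.swap_apply_left]; exact m2
  rcases eq_or_ne x (kB k) with rfl | h2
  · rw [Equiv.swap_apply_right]; exact m1
  rw [Equiv.swap_apply_of_ne_of_ne h1 h2]
  exact (m3 x h1 h2).mv

variable (F m) in
/-- The monomial elements generated by the adjacent ones. -/
def MonG : Subgroup SN :=
  Subgroup.closure ({g | ∃ k t, t ≠ (0 : F) ∧ adj k t = g} ∪ (Dg F m : Set SN))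

theorem MonG_perm {g : SN} (hg : g ∈ MonG F m) : ∃ σ, MvP g σ := by
  induction hg using Subgroup.closure_induction with
  | mem x hx =>
    rcases hx with ⟨k, t, ht, rfl⟩ | hx
    exacts [⟨_, adj_mvP k ht⟩, ⟨1, hx⟩]
  | one => exact ⟨1, fun x => mv_one x⟩
  | mul a b _ _ ha hb =>
    obtain ⟨σ, hσ⟩ := ha; obtain ⟨τ, hτ⟩ := hb
    exact ⟨_, hσ.mul hτ⟩
  | inv a _ ha =>
    obtain ⟨σ, hσ⟩ := ha
    exact ⟨_, hσ.inv⟩

theorem exists_mon (σ : Equiv.Perm (Fin (m + 3))) : ∃ g, g ∈ MonG F m ∧ MvP g σ := by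
  have h : σ ∈ Submonoid.closure (Set.range fun i : Fin (m + 2) => Equiv.swap i.castSucc i.succ) := by
    rw [Equiv.Perm.mclosure_swap_castSucc_succ]; trivial
  induction h using Submonoid.closure_induction with
  | mem x hx =>
    obtain ⟨k, rfl⟩ := hx
    exact ⟨_, Subgroup.subset_closure (Or.inl ⟨k, 1, one_ne_zero, rfl⟩), adj_mvP k one_ne_zero⟩
  | one => exact ⟨1, one_mem _, fun x => mv_one x⟩
  | mul a b _ _ ha hb =>
    obtain ⟨g, g1, g2⟩ := ha; obtain ⟨h, h1, h2⟩ := hb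
    exact ⟨_, mul_mem g1 h1, g2.mul h2⟩

/-- The two tail blocks. -/
def b12 : SpecialLinearGroup (Fin 2) F →* SpecialLinearGroup (Fin (m + 3)) F := (tailHom (m := m)).comp emb12
/-- The two tail blocks. -/
def b23 : SpecialLinearGroup (Fin 2) F →* SpecialLinearGroup (Fin (m + 3)) F := (tailHom (m := m)).comp emb23

theorem dS_val (u : Fˣ) : (dS u).1 = !![(u : F), 0; 0, ((u⁻¹ : Fˣ) : F)] := rfl

theorem dS_mv (u : Fˣ) (i : Fin 3) : Mv (emb12 (dS u) : SpecialLinearGroup (Fin 3) F) i i ∧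
    Mv (emb23 (dS u) : SpecialLinearGroup (Fin 3) F) i i := by
  refine ⟨?_, ?_⟩
  · refine ⟨![(u : F), ((u⁻¹ : Fˣ) : F), 1] i, ?_, fun a => ?_, fun a => ?_⟩
    · fin_cases i <;> simp
    all_goals fin_cases i <;> fin_cases a <;> simp [emb12_coe, dS_val]
  · refine ⟨![1, (u : F), ((u⁻¹ : Fˣ) : F)] i, ?_, fun a => ?_, fun a => ?_⟩
    · fin_cases i <;> simp
    all_goals fin_cases i <;> fin_cases a <;> simp [emb23_coe, dS_val]

theorem tailHom_coe (A : SpecialLinearGroup (Fin 3) F) (a b : Fin 3) :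
    (tailHom (m := m) A).1 (Fin.natAdd m a) (Fin.natAdd m b) = A.1 a b := by
  show Matrix.reindex finSumFinEquiv finSumFinEquiv (Matrix.fromBlocks 1 0 0 A.1) _ _ = _
  simp

theorem tailHom_low (A : SpecialLinearGroup (Fin 3) F) (a : Fin m) :
    Moves (tailHom (m := m) A) (Fin.castAdd 3 a) (Fin.castAdd 3 a) := by
  constructor <;> intro b <;>
    show Matrix.reindex finSumFinEquiv finSumFinEquiv (Matrix.fromBlocks 1 0 0 A.1) _ _ = _ <;>
    induction b using Fin.addCases <;> simp [Matrix.one_apply, Fin.ext_iff, eq_comm] <;> intro h <;> omega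

theorem tail_mem_Dg {A : SpecialLinearGroup (Fin 3) F} (h : ∀ i, Mv A i i) : tailHom (m := m) A ∈ Dg F m := by
  intro x
  induction x using Fin.addCases with
  | left a => exact (tailHom_low A a).mv
  | right a => exact tailHom_mv (h a)

theorem b12_dS_mem (u : Fˣ) : b12 (m := m) (dS u) ∈ Dg F m := tail_mem_Dg fun i => (dS_mv u i).1
theorem b23_dS_mem (u : Fˣ) : b23 (m := m) (dS u) ∈ Dg F m := tail_mem_Dg fun i => (dS_mv u i).2

/-- A monomial element fixing the last two coordinates up to scalars, made exact. -/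
theorem exists_split {g : SN} (hq : Mv g ixQ ixQ) (hl : Mv g ixL ixL) :
    ∃ (g0 : SN) (w v : Fˣ), Moves g0 ixQ ixQ ∧ Moves g0 ixL ixL ∧ g = g0 * b12 (dS w) * b23 (dS v) := by
  obtain ⟨c, hc, q1, q2⟩ := hq
  obtain ⟨d, hd, l1, l2⟩ := hl
  let v : Fˣ := (Units.mk0 d hd)⁻¹
  let w : Fˣ := v * (Units.mk0 c hc)⁻¹
  set g0 := g * (b23 (dS v))⁻¹ * (b12 (dS w))⁻¹ with hg0
  have hT : ∀ (j : Fin 3) (a : Fin (m + 3)),
      (b23 (m := m) (dS v⁻¹) * b12 (dS w⁻¹)).1 (Fin.natAdd m j) a =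
        (if a = Fin.natAdd m j then ![((w⁻¹ : Fˣ) : F), ((v⁻¹ * w : Fˣ) : F), (v : F)] j else 0) ∧
      (b23 (m := m) (dS v⁻¹) * b12 (dS w⁻¹)).1 a (Fin.natAdd m j) =
        if a = Fin.natAdd m j then ![((w⁻¹ : Fˣ) : F), ((v⁻¹ * w : Fˣ) : F), (v : F)] j else 0 := by
    intro j a
    rw [show b23 (m := m) (dS v⁻¹) * b12 (dS w⁻¹) = tailHom (emb23 (dS v⁻¹) * emb12 (dS w⁻¹)) from
      (map_mul (tailHom (m := m)) _ _).symm]
    induction a using Fin.addCases with
    | left a =>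
      refine ⟨?_, ?_⟩
      · rw [((tailHom_low _ a).1 (Fin.natAdd m j))]
        rw [if_neg (by rw [Fin.ext_iff, Fin.val_natAdd, Fin.val_castAdd]; omega),
          if_neg (by rw [Fin.ext_iff, Fin.val_natAdd, Fin.val_castAdd]; omega)]
      · rw [((tailHom_low _ a).2 (Fin.natAdd m j))]
        rw [if_neg (by rw [Fin.ext_iff, Fin.val_natAdd, Fin.val_castAdd]; omega),
          if_neg (by rw [Fin.ext_iff, Fin.val_natAdd, Fin.val_castAdd]; omega)]
    | right a =>
      rw [tailHom_coe, tailHom_coe]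
      have hM : (emb23 (dS v⁻¹) * emb12 (dS w⁻¹)).1 =
          Matrix.diagonal ![((w⁻¹ : Fˣ) : F), ((v⁻¹ * w : Fˣ) : F), (v : F)] := by
        show (emb23 (dS v⁻¹)).1 * (emb12 (dS w⁻¹)).1 = _
        rw [emb12_coe, emb23_coe]
        ext x y; fin_cases x <;> fin_cases y <;> simp [dS_val, Matrix.mul_apply, Fin.sum_univ_three]
      rcases eq_or_ne a j with rfl | h
      · rw [hM]; simp
      · rw [hM]; simp [h, h.symm, (Fin.natAdd_injective 3 m).eq_iff]
  have e : g0 = g * (b23 (dS v⁻¹) * b12 (dS w⁻¹)) := by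
    simp only [hg0, map_inv]; group
  refine ⟨g0, w, v, ?_, ?_, by simp [hg0]⟩
  all_goals rw [e]
  · obtain ⟨c', hc', k1, k2⟩ := Mv.mul (⟨c, hc, q1, q2⟩ : Mv g ixQ ixQ)
      (⟨((v⁻¹ * w : Fˣ) : F), Units.ne_zero _, fun a => (hT 1 a).2, fun a => (hT 1 a).1⟩ :
        Mv (b23 (m := m) (dS v⁻¹) * b12 (dS w⁻¹)) ixQ ixQ)
    have h1 : c' = 1 := by
      have := k1 ixQ
      rw [if_pos rfl] at this
      rw [← this]
      show (g.1 * (b23 (m := m) (dS v⁻¹) * b12 (dS w⁻¹)).1) ixQ ixQ = 1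
      rw [Matrix.mul_apply, Finset.sum_eq_single ixQ (fun x _ hx => by rw [q2 x, if_neg hx, zero_mul]) (by simp),
        q2, if_pos rfl]
      refine (congrArg (c * ·) (((hT 1 ixQ).2).trans (if_pos rfl))).trans ?_
      simp [v, w, hc, hd]
    subst h1
    exact ⟨k1, k2⟩
  · obtain ⟨c', hc', k1, k2⟩ := Mv.mul (⟨d, hd, l1, l2⟩ : Mv g ixL ixL)
      (⟨(v : F), Units.ne_zero _, fun a => (hT 2 a).2, fun a => (hT 2 a).1⟩ :
        Mv (b23 (m := m) (dS v⁻¹) * b12 (dS w⁻¹)) ixL ixL)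
    have h1 : c' = 1 := by
      have := k1 ixL
      rw [if_pos rfl] at this
      rw [← this]
      show (g.1 * (b23 (m := m) (dS v⁻¹) * b12 (dS w⁻¹)).1) ixL ixL = 1
      rw [Matrix.mul_apply, Finset.sum_eq_single ixL (fun x _ hx => by rw [l2 x, if_neg hx, zero_mul]) (by simp),
        l2, if_pos rfl]
      refine (congrArg (d * ·) (((hT 2 ixL).2).trans (if_pos rfl))).trans ?_
      simp [v, hd]
    subst h1
    exact ⟨k1, k2⟩

variable {θ : SpecialLinearGroup (Fin (m + 3)) F →* Γ} {π : SpecialLinearGroup (Fin 3) F →* Γ}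

/-- The torus of the branch node. -/
def hY (π : SpecialLinearGroup (Fin 3) F →* Γ) : Fˣ →* Γ := π.comp (emb23.comp dS)

theorem hY_apply (u : Fˣ) : hY π u = π (emb23 (dS u)) := rfl

variable (H : DHyp θ π)
include H

theorem comm_b23 (A B : SpecialLinearGroup (Fin 2) F) : Commute (θ (b23 (m := m) A)) (π (emb23 B)) := by
  have key : (Subgroup.centralizer {θ (b23 (m := m) A)}).comap (π.comp emb23) = ⊤ := by
    rw [eq_top_iff, ← closure_transvections_eq_top (ι := Fin 2) (F := F), Subgroup.closure_le]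
    rintro _ ⟨i, j, hij, t, rfl⟩
    rw [SetLike.mem_coe, Subgroup.mem_comap, Subgroup.mem_centralizer_singleton_iff, MonoidHom.comp_apply]
    fin_cases i <;> fin_cases j
    · exact absurd rfl hij
    · show π (emb23 (upS t)) * _ = _ * π (emb23 (upS t))
      rw [emb23_upS]; exact (H.commTop A t).1.symm
    · show π (emb23 (lowS t)) * _ = _ * π (emb23 (lowS t))
      rw [emb23_lowS]; exact (H.commTop A t).2.symm
    · exact absurd rfl hij
  exact (Subgroup.mem_centralizer_singleton_iff.1 (key ▸ Subgroup.mem_top B : B ∈ Subgroup.comap _ _)).symm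

theorem comm_fix {g : SN} (hq : Moves g ixQ ixQ) (hl : Moves g ixL ixL) (B : SpecialLinearGroup (Fin 2) F) :
    Commute (θ g) (π (emb23 B)) := by
  have key : (Subgroup.centralizer {θ g}).comap (π.comp emb23) = ⊤ := by
    rw [eq_top_iff, ← closure_transvections_eq_top (ι := Fin 2) (F := F), Subgroup.closure_le]
    rintro _ ⟨i, j, hij, t, rfl⟩
    rw [SetLike.mem_coe, Subgroup.mem_comap, Subgroup.mem_centralizer_singleton_iff, MonoidHom.comp_apply]
    fin_cases i <;> fin_cases j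
    · exact absurd rfl hij
    · show π (emb23 (upS t)) * _ = _ * π (emb23 (upS t))
      rw [emb23_upS]; exact (H.fix_comm hq hl t).1.symm
    · show π (emb23 (lowS t)) * _ = _ * π (emb23 (lowS t))
      rw [emb23_lowS]; exact (H.fix_comm hq hl t).2.symm
    · exact absurd rfl hij
  exact (Subgroup.mem_centralizer_singleton_iff.1 (key ▸ Subgroup.mem_top B : B ∈ Subgroup.comap _ _)).symm

omit H in
theorem emb_dS_comm (w u : Fˣ) :
    Commute (emb12 (dS w) : SpecialLinearGroup (Fin 3) F) (emb23 (dS u)) := by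
  apply Subtype.ext
  show (emb12 (dS w)).1 * (emb23 (dS u)).1 = (emb23 (dS u)).1 * (emb12 (dS w)).1
  rw [emb12_coe, emb23_coe]
  ext x y; fin_cases x <;> fin_cases y <;>
    simp [dS_val, Matrix.mul_apply, Fin.sum_univ_three, mul_comm]

theorem dg_comm_hY {d : SN} (hd : d ∈ Dg F m) (u : Fˣ) : Commute (θ d) (hY π u) := by
  obtain ⟨g0, w, v, h1, h2, rfl⟩ := exists_split (by simpa using hd ixQ) (by simpa using hd ixL)
  rw [map_mul, map_mul, hY_apply]
  refine ((comm_fix H h1 h2 _).mul_left ?_).mul_left (comm_b23 H _ _)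
  show Commute (θ (tailHom (emb12 (dS w)))) _
  rw [← H.compat]
  exact (emb_dS_comm w u).map π

/-- The torus. -/
def TT : Subgroup Γ where
  carrier := {x | ∃ d u, d ∈ Dg F m ∧ θ d * hY π u = x}
  one_mem' := ⟨1, 1, one_mem _, by simp⟩
  mul_mem' := by
    rintro _ _ ⟨d, u, hd, rfl⟩ ⟨d', u', hd', rfl⟩
    refine ⟨d * d', u * u', mul_mem hd hd', ?_⟩
    rw [map_mul, map_mul, mul_assoc, ← mul_assoc (θ d'), (dg_comm_hY H hd' u).eq]
    group
  inv_mem' := by
    rintro _ ⟨d, u, hd, rfl⟩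
    refine ⟨d⁻¹, u⁻¹, inv_mem hd, ?_⟩
    rw [map_inv, map_inv, _root_.mul_inv_rev]
    exact ((dg_comm_hY H hd u).inv_inv).eq

theorem θ_mem_TT {d : SN} (hd : d ∈ Dg F m) : θ d ∈ TT H := ⟨d, 1, hd, by simp⟩
theorem hY_mem_TT (u : Fˣ) : hY π u ∈ TT H := ⟨1, u, one_mem _, by simp⟩

theorem pi12_mem_TT (u : Fˣ) : π (emb12 (dS u)) ∈ TT H := by
  rw [H.compat]; exact θ_mem_TT H (b12_dS_mem u)

omit H in
theorem wconj_dS (w : Fˣ) :
    (mon 1 2 (1 : F)) * emb12 (dS w) * (mon 1 2 (1 : F))⁻¹ = emb12 (dS w) * emb23 (dS w) ∧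
    (mon 0 1 (1 : F)) * emb23 (dS w) * (mon 0 1 (1 : F))⁻¹ = emb12 (dS w) * emb23 (dS w) ∧
    (mon 1 2 (1 : F)) * emb23 (dS w) * (mon 1 2 (1 : F))⁻¹ = emb23 (dS w⁻¹) := by
  have e1 := mon_coe (F := F) (show (1 : Fin 3) ≠ 2 by decide) one_ne_zero
  have e2 := mon_coe (F := F) (show (0 : Fin 3) ≠ 1 by decide) one_ne_zero
  refine ⟨?_, ?_, ?_⟩ <;> rw [mul_inv_eq_iff_eq_mul] <;> apply Subtype.ext
  · show (mon 1 2 (1 : F)).1 * (emb12 (dS w)).1 = (emb12 (dS w)).1 * (emb23 (dS w)).1 * (mon 1 2 (1 : F)).1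
    rw [e1, emb12_coe, emb23_coe]
    ext x y; fin_cases x <;> fin_cases y <;> simp [dS_val, Matrix.mul_apply, Fin.sum_univ_three, mul_comm]
  · show (mon 0 1 (1 : F)).1 * (emb23 (dS w)).1 = (emb12 (dS w)).1 * (emb23 (dS w)).1 * (mon 0 1 (1 : F)).1
    rw [e2, emb12_coe, emb23_coe]
    ext x y; fin_cases x <;> fin_cases y <;> simp [dS_val, Matrix.mul_apply, Fin.sum_univ_three, mul_comm]
  · show (mon 1 2 (1 : F)).1 * (emb23 (dS w)).1 = (emb23 (dS w⁻¹)).1 * (mon 1 2 (1 : F)).1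
    rw [e1, emb23_coe, emb23_coe]
    ext x y; fin_cases x <;> fin_cases y <;> simp [dS_val, Matrix.mul_apply, Fin.sum_univ_three]

theorem conj_TT_of {x : Γ} (h1 : ∀ d ∈ Dg F m, x * θ d * x⁻¹ ∈ TT H) (h2 : ∀ u, x * hY π u * x⁻¹ ∈ TT H) :
    ∀ t ∈ TT H, x * t * x⁻¹ ∈ TT H := by
  rintro _ ⟨d, u, hd, rfl⟩
  rw [show x * (θ d * hY π u) * x⁻¹ = x * θ d * x⁻¹ * (x * hY π u * x⁻¹) by group]
  exact mul_mem (h1 d hd) (h2 u)

theorem conj_nY : ∀ t ∈ TT H, nY π (1 : F) * t * (nY π 1)⁻¹ ∈ TT H := by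
  refine conj_TT_of H (fun d hd => ?_) fun u => ?_
  · obtain ⟨g0, w, v, h1, h2, rfl⟩ := exists_split (by simpa using hd ixQ) (by simpa using hd ixL)
    have hn : nY π (1 : F) = π (emb23 (monS 1)) := by
      rw [nY]; simp only [monS, mon, map_mul, emb23_upS, emb23_lowS]
    have c1 := comm_fix H h1 h2 (monS (1 : F))
    have c2 := comm_b23 H (dS v) (monS (1 : F))
    rw [← hn] at c1 c2
    have hg0 : g0 ∈ Dg F m := by
      have := mul_mem (mul_mem hd (inv_mem (b23_dS_mem v))) (inv_mem (b12_dS_mem w))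
      simpa [mul_assoc] using this
    have h3 : nY π (1 : F) * θ (b12 (dS w)) * (nY π 1)⁻¹ ∈ TT H := by
      show nY π (1 : F) * θ (tailHom (emb12 (dS w))) * (nY π 1)⁻¹ ∈ TT H
      rw [← H.compat, nY, ← map_inv, ← map_mul, ← map_mul, (wconj_dS w).1, map_mul]
      exact mul_mem (pi12_mem_TT H w) (hY_mem_TT H w)
    rw [map_mul, map_mul,
      show nY π (1 : F) * (θ g0 * θ (b12 (dS w)) * θ (b23 (dS v))) * (nY π 1)⁻¹ =
        (nY π 1 * θ g0 * (nY π 1)⁻¹) * (nY π 1 * θ (b12 (dS w)) * (nY π 1)⁻¹) *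
          (nY π 1 * θ (b23 (dS v)) * (nY π 1)⁻¹) by group,
      ← c1.eq, mul_inv_cancel_right, ← c2.eq, mul_inv_cancel_right]
    exact mul_mem (mul_mem (θ_mem_TT H hg0) h3) (θ_mem_TT H (b23_dS_mem v))
  · rw [hY_apply, nY, ← map_inv, ← map_mul, ← map_mul, (wconj_dS u).2.2]
    exact hY_mem_TT H _

theorem conj_adj (k : Fin (m + 2)) {t : F} (ht : t ≠ 0) :
    ∀ x ∈ TT H, θ (adj k t) * x * (θ (adj k t))⁻¹ ∈ TT H := by
  have hp := adj_mvP k ht
  have hD : ∀ d ∈ Dg F m, adj k t * d * (adj k t)⁻¹ ∈ Dg F m := fun d hd x => by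
    have h := (hp.mul (show MvP d 1 from hd)).mul hp.inv
    simpa using h x
  refine conj_TT_of H (fun d hd => ?_) fun u => ?_
  · rw [← map_inv, ← map_mul, ← map_mul]; exact θ_mem_TT H (hD d hd)
  obtain ⟨hA, hB⟩ := k_val k
  obtain ⟨hR, hQ, hL⟩ := ix_val (m := m)
  have := k.isLt
  rcases (by omega : k.val < m ∨ k.val = m ∨ k.val = m + 1) with hk | hk | hk
  · have e : ∀ x : Fin (m + 3), m < x.val → Moves (adj (F := F) k t) x x := fun x hx =>
      (mon_mv (F := F) (kAB k) ht).2.2 x (fun e => by rw [e, hA] at hx; omega) (fun e => by rw [e, hB] at hx; omega)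
    rw [hY_apply, (comm_fix H (e ixQ (by omega)) (e ixL (by omega)) (dS u)).eq, mul_inv_cancel_right]
    exact hY_mem_TT H u
  · have eA : kA k = Fin.natAdd m (0 : Fin 3) := Fin.ext (by simp [hA, hk])
    have eB : kB k = Fin.natAdd m (1 : Fin 3) := Fin.ext (by simp [hB, hk])
    have e : θ (adj k t) = π (mon 0 1 t) := by
      rw [adj, eA, eB, ← tailHom_tv (by decide), ← tailHom_tv (by decide), ← map_mul, ← map_mul, mon,
        map_mul, map_mul, map_mul, map_mul, map_mul π, map_mul π, ← emb12_upS, ← emb12_lowS, H.compat, H.compat,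
        emb12_upS, emb12_lowS]
      rfl
    have e2 : (mon 0 1 t) = emb12 (dS (Units.mk0 t ht)) * mon 0 1 (1 : F) := by
      apply Subtype.ext
      show (mon 0 1 t).1 = (emb12 (dS (Units.mk0 t ht))).1 * (mon 0 1 (1 : F)).1
      rw [mon_coe (by decide) ht, mon_coe (by decide) one_ne_zero, emb12_coe]
      ext x y; fin_cases x <;> fin_cases y <;> simp [dS_val, Matrix.mul_apply, Fin.sum_univ_three]
    set a := π (emb12 (dS (Units.mk0 t ht)))
    have ha : a ∈ TT H := pi12_mem_TT H _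
    rw [e, e2, map_mul, hY_apply, show a * π (mon 0 1 1) * π (emb23 (dS u)) * (a * π (mon 0 1 1))⁻¹ =
      a * (π (mon 0 1 1) * π (emb23 (dS u)) * (π (mon 0 1 1))⁻¹) * a⁻¹ by group,
      ← map_inv, ← map_mul, ← map_mul, (wconj_dS u).2.1, map_mul]
    exact mul_mem (mul_mem ha (mul_mem (pi12_mem_TT H u) (hY_mem_TT H u))) (inv_mem ha)
  · have eA : kA k = Fin.natAdd m (1 : Fin 3) := Fin.ext (by simp [hA, hk])
    have eB : kB k = Fin.natAdd m (2 : Fin 3) := Fin.ext (by simp [hB, hk])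
    have e : adj k t = b23 (monS t) := by
      rw [adj, eA, eB, ← tailHom_tv (by decide), ← tailHom_tv (by decide), ← map_mul, ← map_mul]
      show _ = tailHom (emb23 (monS t))
      simp only [monS, map_mul, emb23_upS, emb23_lowS, el_eq_tv]
    rw [e, hY_apply, (comm_b23 H _ _).eq, mul_inv_cancel_right]
    exact hY_mem_TT H u

end CfsgLib.OmegaPlusPres
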